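import Cfsg.Agent.Lib.Helper43.PU.Coset

set_option autoImplicit false
set_option linter.unusedSectionVars false

/-!
Centraliser in `PGU_n(q)` of a field automorphism of odd order, and the splitting of its class.
-/

namespace Cfsg.Agent.Lib.Helper43.PU

open Matrix Cfsg.Agent.Lib.Helper43.PA Cfsg.Agent.Lib.Helper13 Cfsg.Agent.Lib.Helper5

variable {F : Type*} [Field F] [Fintype F] {q n : ℕ}

/-- the norm-one group. -/
def U1 (F : Type*) [Field F] (q : ℕ) : Subgroup Fˣ := (powMonoidHom (q + 1) : Fˣ →* Fˣ).ker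

lemma mem_U1 {u : Fˣ} : u ∈ U1 F q ↔ u ^ (q + 1) = 1 := Iff.rfl

lemma card_U1 (hF : Fintype.card F = q ^ 2) : Nat.card (U1 F q) = q + 1 :=
  card_norm_one_units hF

/-- the determinant, with values in the norm-one group. -/
noncomputable def detU (hF : Fintype.card F = q ^ 2) (hn : 1 ≤ n) : ↥(Cfsg.GU n F q) →* ↥(U1 F q) :=
  (detGU n F q).codRestrict (U1 F q) (fun g => by
    have h : detGU n F q g ∈ ((detGU n F q).range : Set Fˣ) := ⟨g, rfl⟩
    rw [range_detGU hF hn] at h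
    exact h)

lemma detU_coe (hF : Fintype.card F = q ^ 2) (hn : 1 ≤ n) (g : ↥(Cfsg.GU n F q)) :
    (detU hF hn g).1 = Matrix.GeneralLinearGroup.det g.1 := rfl

lemma detU_surjective (hF : Fintype.card F = q ^ 2) (hn : 1 ≤ n) :
    Function.Surjective (detU (n := n) hF hn) := by
  rintro ⟨u, hu⟩
  have h : u ∈ ((detGU n F q).range : Set Fˣ) := by
    rw [range_detGU hF hn]; exact hu
  obtain ⟨g, hg⟩ := h
  exact ⟨g, Subtype.ext hg⟩

lemma ker_detU (hF : Fintype.card F = q ^ 2) (hn : 1 ≤ n) :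
    (detU (n := n) hF hn).ker = (detGU n F q).ker := by
  ext g
  rw [MonoidHom.mem_ker, MonoidHom.mem_ker, Subtype.ext_iff]
  rfl

lemma inn_eq_map_U (hF : Fintype.card F = q ^ 2) (hn : 1 ≤ n) :
    Cfsg.Inn (Cfsg.PSU n F q) = (detU (n := n) hF hn).ker.map cGU := by
  rw [ker_detU, ← range_suToGU]
  ext y
  constructor
  · rintro ⟨t, rfl⟩
    obtain ⟨s, rfl⟩ := QuotientGroup.mk_surjective t
    exact ⟨suToGU n F q s, ⟨s, rfl⟩, (conj_mk_eq_cGU s).symm⟩
  · rintro ⟨_, ⟨s, rfl⟩, rfl⟩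
    exact ⟨QuotientGroup.mk s, conj_mk_eq_cGU s⟩

/-- unitary dilations. -/
lemma dil_mem_GU (i0 : Fin n) {w : Fˣ} (hw : w ^ (q + 1) = 1) : dil i0 w ∈ Cfsg.GU n F q := by
  rw [mem_GU_iff]
  intro x y
  rw [dil_coe]
  apply diagonal_preserves
  intro i
  by_cases h : i = i0
  · subst h
    have := congrArg Units.val hw
    simpa using this
  · simp [Pi.mulSingle_eq_of_ne h]

section

variable {p f : ℕ} [hp : Fact p.Prime] (hq : q = p ^ f) (hf : 1 ≤ f) (hF : Fintype.card F = q ^ 2)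
  (σ : F ≃+* F) (hodd : Odd (orderOf σ))

include hq hf hF hodd

theorem mem_cent_fAU_iff (hn : 3 ≤ n) (g : ↥(Cfsg.GU n F q)) :
    g ∈ (Subgroup.centralizer {(fAU σ : MulAut (Cfsg.PSU n F q))}).comap cGU ↔
      ∃ v : Fˣ, v * uM (barE hF) v = 1 ∧ mapGL σ (scGL v * g.1) = scGL v * g.1 := by
  rw [Subgroup.mem_comap, Subgroup.mem_centralizer_singleton_iff]
  constructor
  · intro h
    rw [fAU_mul_cGU, mul_left_inj] at h
    have h0 : cGU (mapGU σ g * g⁻¹) = 1 := by rw [map_mul, map_inv, ← h, mul_inv_cancel]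
    obtain ⟨u, hu1, hu⟩ := exists_scGL_of_scalar hF hn h0
    have hu' : mapGL σ g.1 = scGL u * g.1 := by
      rw [← hu]
      show _ = mapGL σ g.1 * g.1⁻¹ * g.1
      rw [inv_mul_cancel_right]
    have h1 := mapGL_pow_of_scalar σ hu' (orderOf σ)
    rw [pow_orderOf_eq_one, mapGL_one'] at h1
    have h2 : nU σ u (orderOf σ) = 1 := by
      apply scGL_injective (n := n) (by omega)
      rw [map_one]
      exact mul_eq_right.1 h1.symm
    obtain ⟨v, hv1, hv⟩ := h90_U1 hq hf hF σ hodd u hu1 h2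
    refine ⟨v, hv1, ?_⟩
    rw [map_mul, mapGL_scGL, hu', ← mul_assoc, ← map_mul, hv, mul_comm, inv_mul_cancel_right]
  · rintro ⟨v, hv1, hv⟩
    have e : cGU g = cGU (scGU hF v hv1 * g) := by rw [map_mul, cGU_scGU, one_mul]
    rw [e, fAU_mul_cGU]
    congr 2
    exact Subtype.ext hv.symm

/-- determinants of the centraliser. -/
theorem det_cent_fAU (hn : 3 ≤ n) :
    ((Subgroup.centralizer {(fAU σ : MulAut (Cfsg.PSU n F q))}).comap cGU).map
      (detU (n := n) hF (by omega)) =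
      (powMonoidHom n : ↥(U1 F q) →* ↥(U1 F q)).range ⊔ (fixU σ).subgroupOf (U1 F q) := by
  apply le_antisymm
  · rintro _ ⟨g, hg, rfl⟩
    obtain ⟨v, hv1, hv⟩ := (mem_cent_fAU_iff hq hf hF σ hodd hn g).1 hg
    have hvU : v ∈ U1 F q := pow_succ_of_norm hF hv1
    have h1 : detU hF (by omega) g =
        ((⟨v, hvU⟩ : ↥(U1 F q))⁻¹) ^ n * detU hF (by omega) (scGU hF v hv1 * g) := by
      apply Subtype.ext
      show Matrix.GeneralLinearGroup.det g.1 =
        (v⁻¹) ^ n * Matrix.GeneralLinearGroup.det (scGL v * g.1)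
      rw [map_mul, det_scGL, ← mul_assoc, ← mul_pow, inv_mul_cancel, one_pow, one_mul]
    rw [h1]
    refine Subgroup.mul_mem _ (Subgroup.mem_sup_left ⟨_, rfl⟩) (Subgroup.mem_sup_right ?_)
    rw [Subgroup.mem_subgroupOf, mem_fixU]
    show uM σ (Matrix.GeneralLinearGroup.det (scGL v * g.1)) = _
    rw [← det_mapGL, hv]
    rfl
  · rw [sup_le_iff]
    constructor
    · rintro _ ⟨u, rfl⟩
      have hu1 := norm_of_pow_succ hF u.2
      refine ⟨scGU hF u.1 hu1, ?_, ?_⟩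
      · show scGU hF u.1 hu1 ∈ Subgroup.comap cGU _
        rw [Subgroup.mem_comap, cGU_scGU]
        exact Subgroup.one_mem _
      · apply Subtype.ext
        exact det_scGL u.1
    · intro w hw
      rw [Subgroup.mem_subgroupOf, mem_fixU] at hw
      refine ⟨⟨dil ⟨0, by omega⟩ w.1, dil_mem_GU _ w.2⟩, ?_, ?_⟩
      · apply (mem_cent_fAU_iff hq hf hF σ hodd hn _).2
        refine ⟨1, by simp, ?_⟩
        rw [map_one, one_mul, mapGL_dil, hw]
      · apply Subtype.ext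
        exact det_dil _ w.1

end

/-! ### the subfield subgroup -/

lemma pow_q_odd {F₀ : Type*} [Field F₀] [Fintype F₀] {q₀ : ℕ} (hF₀ : Fintype.card F₀ = q₀ ^ 2)
    (k : ℕ) (y : F₀) : y ^ (q₀ ^ (2 * k + 1)) = y ^ q₀ := by
  induction k with
  | zero => simp
  | succ k ih =>
    have e : q₀ ^ (2 * (k + 1) + 1) = q₀ ^ 2 * q₀ ^ (2 * k + 1) := by ring
    rw [e, pow_mul, ← hF₀, FiniteField.pow_card, ih]

section

variable {F₀ : Type*} [Field F₀] [Fintype F₀] {q₀ : ℕ} (hF : Fintype.card F = q ^ 2)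
  (hF₀ : Fintype.card F₀ = q₀ ^ 2) (ι : F₀ →+* F) (hpow : ∀ y : F₀, y ^ q = y ^ q₀)

include hF hF₀ hpow

lemma map_mem_GU_iff (g₀ : GL (Fin n) F₀) :
    Matrix.GeneralLinearGroup.map ι g₀ ∈ Cfsg.GU n F q ↔ g₀ ∈ Cfsg.GU n F₀ q₀ := by
  rw [mem_GU_iff_matrix (barE hF) (barE_apply hF), mem_GU_iff_matrix (barE hF₀) (barE_apply hF₀)]
  have e : (Matrix.GeneralLinearGroup.map ι g₀).1ᵀ * (Matrix.GeneralLinearGroup.map ι g₀).1.map
      (barE hF) = (g₀.1ᵀ * g₀.1.map (barE hF₀)).map ι := by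
    rw [Matrix.map_mul]
    congr 1
    ext i j
    show (ι (g₀.1 i j)) ^ q = ι ((g₀.1 i j) ^ q₀)
    rw [← hpow, map_pow]
  rw [e]
  constructor
  · intro h
    apply Matrix.map_injective ι.injective
    show ((g₀.1)ᵀ * (g₀.1).map (barE hF₀)).map ι = (1 : Matrix (Fin n) (Fin n) F₀).map ι
    rw [h]
    simp
  · intro h
    rw [h]
    simp

/-- the subfield subgroup. -/
noncomputable def mapIota : ↥(Cfsg.GU n F₀ q₀) →* ↥(Cfsg.GU n F q) where
  toFun g₀ := ⟨Matrix.GeneralLinearGroup.map ι g₀.1, (map_mem_GU_iff hF hF₀ ι hpow g₀.1).2 g₀.2⟩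
  map_one' := Subtype.ext (map_one _)
  map_mul' a b := Subtype.ext (map_mul _ _ _)

end

section

variable {p f : ℕ} [hp : Fact p.Prime] (hq : q = p ^ f) (hf : 1 ≤ f) (hF : Fintype.card F = q ^ 2)
  (σ : F ≃+* F) (hodd : Odd (orderOf σ))
  {F₀ : Type*} [Field F₀] [Fintype F₀] {q₀ : ℕ}
  (hF₀ : Fintype.card F₀ = q₀ ^ 2) (ι : F₀ →+* F) (hpow : ∀ y : F₀, y ^ q = y ^ q₀)
  (hι : ∀ x, σ x = x ↔ ∃ y, ι y = x)

include hq hf hF hodd hF₀ hpow hι

/-- `C_{PGU_n(q)}(φ) ≅ PGU_n(q₀)`. -/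
theorem cent_fAU_equiv (hn : 3 ≤ n) :
    Nonempty (↥((cGU : ↥(Cfsg.GU n F q) →* _).range ⊓
      Subgroup.centralizer {(fAU σ : MulAut (Cfsg.PSU n F q))}) ≃* Cfsg.PGU n F₀ q₀) := by
  let ψ : ↥(Cfsg.GU n F₀ q₀) →* MulAut (Cfsg.PSU n F q) := cGU.comp (mapIota hF hF₀ ι hpow)
  have hrange : ψ.range = (cGU : ↥(Cfsg.GU n F q) →* _).range ⊓
      Subgroup.centralizer {(fAU σ : MulAut (Cfsg.PSU n F q))} := by
    ext y
    constructor
    · rintro ⟨g₀, rfl⟩
      refine ⟨⟨_, rfl⟩, ?_⟩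
      have : mapIota hF hF₀ ι hpow g₀ ∈ (Subgroup.centralizer
          {(fAU σ : MulAut (Cfsg.PSU n F q))}).comap cGU := by
        rw [mem_cent_fAU_iff hq hf hF σ hodd hn]
        refine ⟨1, by simp, ?_⟩
        rw [map_one, one_mul]
        exact (exists_map_eq ι σ hι _).2 ⟨g₀.1, rfl⟩
      exact this
    · rintro ⟨⟨g, rfl⟩, hg⟩
      have hg' : g ∈ (Subgroup.centralizer
          {(fAU σ : MulAut (Cfsg.PSU n F q))}).comap cGU := hg
      rw [mem_cent_fAU_iff hq hf hF σ hodd hn] at hg'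
      obtain ⟨v, hv1, hv⟩ := hg'
      obtain ⟨g₀, hg₀⟩ := (exists_map_eq ι σ hι _).1 hv
      have hmem : g₀ ∈ Cfsg.GU n F₀ q₀ := by
        rw [← map_mem_GU_iff hF hF₀ ι hpow, hg₀]
        exact (scGU hF v hv1 * g).2
      refine ⟨⟨g₀, hmem⟩, ?_⟩
      show cGU (mapIota hF hF₀ ι hpow ⟨g₀, hmem⟩) = cGU g
      have e : mapIota hF hF₀ ι hpow ⟨g₀, hmem⟩ = scGU hF v hv1 * g := Subtype.ext hg₀
      rw [e, map_mul, cGU_scGU, one_mul]
  have hker : ψ.ker = (Cfsg.Geo.scalars (Fin n) F₀).subgroupOf (Cfsg.GU n F₀ q₀) := by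
    ext g₀
    rw [MonoidHom.mem_ker, Subgroup.mem_subgroupOf, Cfsg.Geo.mem_scalars_iff]
    show cGU (mapIota hF hF₀ ι hpow g₀) = 1 ↔ _
    rw [cGU_eq_one_iff hF hn]
    constructor
    · rintro ⟨a, ha⟩
      have h1 : ∀ i j, ι (g₀.1.1 i j) = if i = j then a else 0 := by
        intro i j
        have := congrFun (ha (Pi.single j 1)) i
        have e : ((mapIota hF hF₀ ι hpow g₀).1.1 *ᵥ (Pi.single j 1 : Fin n → F)) i =
            ι (g₀.1.1 i j) := by
          rw [Matrix.mulVec_single_one]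
          rfl
        rw [e] at this
        rw [this]
        by_cases h : i = j
        · subst h; simp
        · simp [h]
      have hdet : g₀.1.1 ⟨0, by omega⟩ ⟨0, by omega⟩ ≠ 0 := by
        intro h0
        have ha0 : a = 0 := by
          have := h1 ⟨0, by omega⟩ ⟨0, by omega⟩
          rw [h0, map_zero, if_pos rfl] at this
          exact this.symm
        have hz : g₀.1.1 = 0 := by
          ext i j
          apply ι.injective
          rw [h1, ha0]
          simp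
        have hu : IsUnit g₀.1.1 := g₀.1.isUnit
        rw [hz] at hu
        have : Nonempty (Fin n) := ⟨⟨0, by omega⟩⟩
        exact not_isUnit_zero hu
      refine ⟨Units.mk0 _ hdet, ?_⟩
      ext i j
      apply ι.injective
      rw [h1]
      by_cases h : i = j
      · subst h
        simp only [if_true, Units.val_mk0, Matrix.smul_apply, Matrix.one_apply_eq, smul_eq_mul,
          mul_one]
        rw [h1, if_pos rfl]
      · simp [h]
    · rintro ⟨c, hc⟩
      refine ⟨ι c, fun x => ?_⟩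
      show (g₀.1.1.map ι) *ᵥ x = _
      rw [hc]
      have : ((c : F₀) • (1 : Matrix (Fin n) (Fin n) F₀)).map ι =
          (ι c) • (1 : Matrix (Fin n) (Fin n) F) := by
        ext i j
        by_cases h : i = j
        · subst h; simp
        · simp [h]
      rw [this, smul_mulVec, one_mulVec]
  refine ⟨((MulEquiv.subgroupCongr hrange).symm.trans
    (QuotientGroup.quotientKerEquivRange ψ).symm).trans (QuotientGroup.quotientMulEquivOfEq hker)⟩

omit hq hf hodd in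
lemma card_fixA : Nat.card ((fixU σ).subgroupOf (U1 F q)) = q₀ + 1 := by
  rw [← card_norm_one_units hF₀]
  symm
  have hpu : ∀ y : F₀ˣ, y ^ (q + 1) = y ^ (q₀ + 1) := by
    intro y
    apply Units.ext
    simp only [Units.val_pow_eq_pow_val]
    rw [pow_succ, pow_succ, hpow]
  refine Nat.card_congr (Equiv.ofBijective
    (fun y : {y : F₀ˣ // y ^ (q₀ + 1) = 1} =>
      (⟨⟨Units.map ι.toMonoidHom y.1, ?_⟩, ?_⟩ : ↥((fixU σ).subgroupOf (U1 F q)))) ⟨?_, ?_⟩)
  · rw [mem_U1, ← map_pow, hpu, y.2, map_one]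
  · rw [Subgroup.mem_subgroupOf, mem_fixU]
    exact Units.ext ((hι _).2 ⟨y.1.1, rfl⟩)
  · intro a b h
    apply Subtype.ext
    apply Units.ext
    apply ι.injective
    exact congrArg (fun z : ↥((fixU σ).subgroupOf (U1 F q)) => (z.1.1 : F)) h
  · rintro ⟨⟨a, ha⟩, ha'⟩
    rw [Subgroup.mem_subgroupOf, mem_fixU] at ha'
    obtain ⟨y, hy⟩ := (hι _).1 (congrArg Units.val ha')
    have hy' : ι y = (a : F) := hy
    have hy0 : y ≠ 0 := by
      rintro rfl
      rw [map_zero] at hy'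
      exact a.ne_zero hy'.symm
    have e : Units.map ι.toMonoidHom (Units.mk0 y hy0) = a := Units.ext hy'
    refine ⟨⟨Units.mk0 y hy0, ?_⟩, ?_⟩
    · apply Units.map_injective (f := ι.toMonoidHom) ι.injective
      rw [← hpu, map_pow, e, map_one]
      exact ha
    · apply Subtype.ext
      apply Subtype.ext
      exact e

theorem split_fAU (hn : 3 ≤ n) :
    Cfsg.splitClassCount (cGU : ↥(Cfsg.GU n F q) →* _).range
      (Cfsg.Inn (Cfsg.PSU n F q)) (fAU σ) = Nat.gcd n ((q + 1) / (q₀ + 1)) := by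
  rw [inn_eq_map_U hF (by omega), splitClassCount_eq_index _ _ (detU_surjective hF (by omega)),
    det_cent_fAU hq hf hF σ hodd hn, cyclic_index]
  congr 1
  have h1 := Subgroup.card_mul_index ((fixU σ).subgroupOf (U1 F q))
  rw [card_fixA hF σ hF₀ ι hpow hι, card_U1 hF] at h1
  rw [← h1]
  exact (Nat.mul_div_cancel_left _ (by omega)).symm

end

theorem row_S2705 {p f : ℕ} [Fact p.Prime] (hq : q = p ^ f) (hf : 1 ≤ f)
    (hF : Fintype.card F = q ^ 2) (hn : 3 ≤ n) (hfac : Fac n F q)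
    (x : MulAut (Cfsg.PSU n F q)) (hx : Cfsg.IsFieldAutClassPSU x) {r : ℕ}
    (hxr : orderOf x = r) (F₀ : Type*) [Field F₀] [Fintype F₀]
    (hF₀ : Fintype.card F₀ = p ^ (2 * (f / r))) :
    r ∣ f ∧ Nonempty (↥(Cfsg.inndiagPSU n F q ⊓ Subgroup.centralizer {x}) ≃*
      Cfsg.PGU n F₀ (p ^ (f / r))) ∧
      Cfsg.splitClassCount (Cfsg.inndiagPSU n F q) (Cfsg.Inn (Cfsg.PSU n F q)) x =
        Nat.gcd n ((q + 1) / (p ^ (f / r) + 1)) := by
  rw [inndiagPSU_eq]
  obtain ⟨α, φ, σ, hσ, hodd, hstd, e⟩ := hx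
  rw [eq_fAU_of_isFieldAut hstd] at e
  have hord : orderOf σ = r := by
    rw [← orderOf_injective fAU (fAU_injective (n := n) hF hn) σ, ← e, orderOf_conj', hxr]
  have hD := range_cGU_normal hfac
  have hF' : Fintype.card F = p ^ (2 * f) := by rw [hF, hq, ← pow_mul, mul_comm]
  have hr2 : r ∣ 2 * f := hord ▸ orderOf_dvd_of_card hF' σ
  have hrf : r ∣ f := by
    rw [hord] at hodd
    exact (Nat.Coprime.dvd_of_dvd_mul_left (Nat.Coprime.symm hodd.coprime_two_left) hr2)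
  have hdiv : 2 * f / r = 2 * (f / r) := Nat.mul_div_assoc 2 hrf
  have hF₀' : Fintype.card F₀ = (p ^ (f / r)) ^ 2 := by rw [hF₀, ← pow_mul, mul_comm]
  obtain ⟨ι, hι⟩ := exists_embedding hF' (by omega) σ F₀ (by rw [hF₀, hord, hdiv])
  have hpow : ∀ y : F₀, y ^ q = y ^ (p ^ (f / r)) := by
    intro y
    obtain ⟨k, hk⟩ := hord ▸ hodd
    have : q = (p ^ (f / r)) ^ (2 * k + 1) := by
      rw [← pow_mul, ← hk, Nat.div_mul_cancel hrf, hq]
    rw [this, pow_q_odd hF₀']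
  refine ⟨hrf, ?_, ?_⟩
  · obtain ⟨E1⟩ := centralizer_conj_equiv (cGU : ↥(Cfsg.GU n F q) →* _).range α x
    rw [e] at E1
    obtain ⟨E2⟩ := cent_fAU_equiv hq hf hF σ hodd hF₀' ι hpow hι hn
    exact ⟨E1.trans E2⟩
  · rw [← splitClassCount_conj _ _ α x, e, split_fAU hq hf hF σ hodd hF₀' ι hpow hι hn]

end Cfsg.Agent.Lib.Helper43.PU
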