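import Mathlib
import Cfsg.Prelude.Def_LieTypeDatum
import Cfsg.Agent.Lib.Helper43.PA.Basic

set_option autoImplicit false

/-!
Automorphisms of `PSU_n(q)`: conjugation by `GU_n(q)` and field automorphisms, as elements of
`MulAut`, with their relations.
-/

namespace Cfsg.Agent.Lib.Helper43.PU

open Matrix Cfsg.Agent.Lib.Helper43.PA

variable {n q : ℕ} {F : Type*} [Field F]

lemma mem_SU_iff (s : SpecialLinearGroup (Fin n) F) :
    s ∈ Cfsg.SU n F q ↔ ∀ u v, Cfsg.hermForm n F q (s.1 *ᵥ u) (s.1 *ᵥ v) = Cfsg.hermForm n F q u v :=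
  Iff.rfl

lemma mem_GU_iff (g : GL (Fin n) F) :
    g ∈ Cfsg.GU n F q ↔ ∀ u v, Cfsg.hermForm n F q (g.1 *ᵥ u) (g.1 *ᵥ v) = Cfsg.hermForm n F q u v :=
  Iff.rfl

lemma conjSL_mem_SU {g : GL (Fin n) F} (hg : g ∈ Cfsg.GU n F q) {s : SpecialLinearGroup (Fin n) F}
    (hs : s ∈ Cfsg.SU n F q) : conjSL g s ∈ Cfsg.SU n F q := by
  rw [mem_SU_iff]
  intro u v
  rw [conjSL_coe, ← mulVec_mulVec, ← mulVec_mulVec, ← mulVec_mulVec, ← mulVec_mulVec,
    (mem_GU_iff g).1 hg, (mem_SU_iff s).1 hs, (mem_GU_iff _).1 ((Cfsg.GU n F q).inv_mem hg)]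

/-- conjugation by a unitary matrix, on `SU_n`. -/
noncomputable def conjSU : ↥(Cfsg.GU n F q) →* MulAut ↥(Cfsg.SU n F q) where
  toFun g :=
    { toFun := fun s => ⟨conjSL g.1 s.1, conjSL_mem_SU g.2 s.2⟩
      invFun := fun s => ⟨conjSL g.1⁻¹ s.1, conjSL_mem_SU ((Cfsg.GU n F q).inv_mem g.2) s.2⟩
      left_inv := fun s => by
        apply Subtype.ext
        show conjSL g.1⁻¹ (conjSL g.1 s.1) = s.1
        rw [← MulAut.mul_apply, ← map_mul, inv_mul_cancel, map_one]; rfl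
      right_inv := fun s => by
        apply Subtype.ext
        show conjSL g.1 (conjSL g.1⁻¹ s.1) = s.1
        rw [← MulAut.mul_apply, ← map_mul, mul_inv_cancel, map_one]; rfl
      map_mul' := fun s t => Subtype.ext (map_mul (conjSL g.1) s.1 t.1) }
  map_one' := by
    ext s : 1
    apply Subtype.ext
    show conjSL (1 : GL (Fin n) F) s.1 = s.1
    rw [map_one]; rfl
  map_mul' g h := by
    ext s : 1
    apply Subtype.ext
    show conjSL (g.1 * h.1) s.1 = conjSL g.1 (conjSL h.1 s.1)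
    rw [map_mul]; rfl

lemma conjSU_coe (g : ↥(Cfsg.GU n F q)) (s : ↥(Cfsg.SU n F q)) :
    (conjSU g s).1 = conjSL g.1 s.1 := rfl

lemma hermForm_comp (σ : F ≃+* F) (u v : Fin n → F) :
    Cfsg.hermForm n F q (⇑σ ∘ u) (⇑σ ∘ v) = σ (Cfsg.hermForm n F q u v) := by
  unfold Cfsg.hermForm
  rw [map_sum]
  apply Finset.sum_congr rfl
  intro i _
  rw [map_mul, map_pow]; rfl

lemma map_mulVec_comp (σ : F ≃+* F) (M : Matrix (Fin n) (Fin n) F) (u : Fin n → F) :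
    M.map σ *ᵥ (⇑σ ∘ u) = ⇑σ ∘ (M *ᵥ u) := by
  funext i
  exact (RingHom.map_mulVec (σ : F →+* F) M u i).symm

lemma comp_symm_comp (σ : F ≃+* F) (u : Fin n → F) : ⇑σ ∘ (⇑σ.symm ∘ u) = u := by
  funext i; exact σ.apply_symm_apply _

lemma map_preserves (σ : F ≃+* F) {M : Matrix (Fin n) (Fin n) F}
    (h : ∀ u v, Cfsg.hermForm n F q (M *ᵥ u) (M *ᵥ v) = Cfsg.hermForm n F q u v) (u v : Fin n → F) :
    Cfsg.hermForm n F q (M.map σ *ᵥ u) (M.map σ *ᵥ v) = Cfsg.hermForm n F q u v := by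
  rw [← comp_symm_comp σ u, ← comp_symm_comp σ v, map_mulVec_comp, map_mulVec_comp, hermForm_comp,
    hermForm_comp, h]

lemma fieldSL_mem_SU (σ : F ≃+* F) {s : SpecialLinearGroup (Fin n) F} (hs : s ∈ Cfsg.SU n F q) :
    fieldSL σ s ∈ Cfsg.SU n F q := by
  rw [mem_SU_iff]
  intro u v
  rw [fieldSL_coe]
  exact map_preserves σ ((mem_SU_iff s).1 hs) u v

/-- a field automorphism applied entrywise, on `SU_n`. -/
noncomputable def fieldSU : (F ≃+* F) →* MulAut ↥(Cfsg.SU n F q) where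
  toFun σ :=
    { toFun := fun s => ⟨fieldSL σ s.1, fieldSL_mem_SU σ s.2⟩
      invFun := fun s => ⟨fieldSL σ⁻¹ s.1, fieldSL_mem_SU σ⁻¹ s.2⟩
      left_inv := fun s => by
        apply Subtype.ext
        show fieldSL σ⁻¹ (fieldSL σ s.1) = s.1
        rw [← MulAut.mul_apply, ← map_mul, inv_mul_cancel, map_one]; rfl
      right_inv := fun s => by
        apply Subtype.ext
        show fieldSL σ (fieldSL σ⁻¹ s.1) = s.1
        rw [← MulAut.mul_apply, ← map_mul, mul_inv_cancel, map_one]; rfl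
      map_mul' := fun s t => Subtype.ext (map_mul (fieldSL σ) s.1 t.1) }
  map_one' := by
    ext s : 1
    apply Subtype.ext
    show fieldSL (1 : F ≃+* F) s.1 = s.1
    rw [map_one]; rfl
  map_mul' σ τ := by
    ext s : 1
    apply Subtype.ext
    show fieldSL (σ * τ) s.1 = fieldSL σ (fieldSL τ s.1)
    rw [map_mul]; rfl

lemma fieldSU_coe (σ : F ≃+* F) (s : ↥(Cfsg.SU n F q)) : (fieldSU σ s).1 = fieldSL σ s.1 := rfl

/-- An automorphism of `SU_n` induces one of `PSU_n`. -/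
noncomputable def psuAut : MulAut ↥(Cfsg.SU n F q) →* MulAut (Cfsg.PSU n F q) where
  toFun α := QuotientGroup.congr _ _ α
    (Subgroup.characteristic_iff_map_eq.mp inferInstance α)
  map_one' := by
    ext x
    induction x using QuotientGroup.induction_on with
    | H s => rfl
  map_mul' α α' := by
    ext x
    induction x using QuotientGroup.induction_on with
    | H s => rfl

lemma psuAut_mk (α : MulAut ↥(Cfsg.SU n F q)) (s : ↥(Cfsg.SU n F q)) :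
    psuAut α (QuotientGroup.mk s) = QuotientGroup.mk (α s) := rfl

lemma mulAut_psu_ext {β β' : MulAut (Cfsg.PSU n F q)}
    (h : ∀ s : ↥(Cfsg.SU n F q), β (QuotientGroup.mk s) = β' (QuotientGroup.mk s)) : β = β' := by
  ext x
  induction x using QuotientGroup.induction_on with
  | H s => exact h s

/-- `GU_n → Aut(PSU_n)`. -/
noncomputable def cGU : ↥(Cfsg.GU n F q) →* MulAut (Cfsg.PSU n F q) := psuAut.comp conjSU

/-- `Aut(F) → Aut(PSU_n)`. -/
noncomputable def fAU : (F ≃+* F) →* MulAut (Cfsg.PSU n F q) := psuAut.comp fieldSU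

lemma cGU_mk' (g : ↥(Cfsg.GU n F q)) (s : ↥(Cfsg.SU n F q)) :
    cGU g (QuotientGroup.mk s) = QuotientGroup.mk (conjSU g s) := rfl

lemma fAU_mk' (σ : F ≃+* F) (s : ↥(Cfsg.SU n F q)) :
    fAU σ (QuotientGroup.mk s) = QuotientGroup.mk (fieldSU σ s) := rfl

lemma SU_ext' {s t : ↥(Cfsg.SU n F q)} (h : s.1.1 = t.1.1) : s = t := Subtype.ext (Subtype.ext h)

lemma cGU_mk (g : ↥(Cfsg.GU n F q)) (s s' : ↥(Cfsg.SU n F q))
    (h : s'.1.1 = g.1.1 * s.1.1 * (g⁻¹).1.1) : cGU g (QuotientGroup.mk s) = QuotientGroup.mk s' := by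
  rw [cGU_mk']
  congr 1
  exact SU_ext' h.symm

lemma fAU_mk (σ : F ≃+* F) (s s' : ↥(Cfsg.SU n F q)) (h : s'.1.1 = s.1.1.map σ) :
    fAU σ (QuotientGroup.mk s) = QuotientGroup.mk s' := by
  rw [fAU_mk']
  congr 1
  exact SU_ext' h.symm

lemma mapGL_mem_GU (σ : F ≃+* F) {g : GL (Fin n) F} (hg : g ∈ Cfsg.GU n F q) :
    mapGL σ g ∈ Cfsg.GU n F q := by
  rw [mem_GU_iff]
  intro u v
  rw [mapGL_coe]
  exact map_preserves σ ((mem_GU_iff g).1 hg) u v

/-- `σ` applied to a unitary matrix. -/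
noncomputable def mapGU (σ : F ≃+* F) : ↥(Cfsg.GU n F q) →* ↥(Cfsg.GU n F q) where
  toFun g := ⟨mapGL σ g.1, mapGL_mem_GU σ g.2⟩
  map_one' := Subtype.ext (map_one (mapGL σ))
  map_mul' g h := Subtype.ext (map_mul (mapGL σ) g.1 h.1)

lemma mapGU_coe (σ : F ≃+* F) (g : ↥(Cfsg.GU n F q)) : (mapGU σ g).1 = mapGL σ g.1 := rfl

lemma fieldSU_mul_conjSU (σ : F ≃+* F) (g : ↥(Cfsg.GU n F q)) :
    fieldSU σ * conjSU g = conjSU (mapGU σ g) * fieldSU σ := by
  ext s : 1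
  apply Subtype.ext
  exact DFunLike.congr_fun (fieldSL_mul_conjSL σ g.1) s.1

lemma fAU_mul_cGU (σ : F ≃+* F) (g : ↥(Cfsg.GU n F q)) :
    fAU σ * cGU g = cGU (mapGU σ g) * fAU σ := by
  simp only [fAU, cGU, MonoidHom.comp_apply, ← map_mul, fieldSU_mul_conjSU]

lemma isInnerDiagonal_cGU (g : ↥(Cfsg.GU n F q)) : Cfsg.IsInnerDiagonalAutPSU (cGU g) :=
  ⟨g.1, g.2, fun s s' h => cGU_mk g s s' h⟩

lemma isFieldAut_fAU (σ : F ≃+* F) : Cfsg.IsFieldAutPSUOf σ (fAU σ : MulAut (Cfsg.PSU n F q)) :=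
  fun s s' h => fAU_mk σ s s' h

lemma isInduced_cGU_fAU (g : ↥(Cfsg.GU n F q)) (σ : F ≃+* F) :
    Cfsg.IsInducedBySemilinearPSU g.1 σ (cGU g * fAU σ) := by
  intro s s' h
  rw [MulAut.mul_apply, fAU_mk']
  exact cGU_mk g _ s' h

/-- an inner-diagonal automorphism is some `cGU g`. -/
lemma eq_cGU_of_isInnerDiagonal {β : MulAut (Cfsg.PSU n F q)} (h : Cfsg.IsInnerDiagonalAutPSU β) :
    ∃ g : ↥(Cfsg.GU n F q), β = cGU g := by
  obtain ⟨g, hg, h⟩ := h
  refine ⟨⟨g, hg⟩, mulAut_psu_ext fun s => ?_⟩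
  rw [cGU_mk']
  exact h s _ rfl

lemma eq_fAU_of_isFieldAut {σ : F ≃+* F} {β : MulAut (Cfsg.PSU n F q)}
    (h : Cfsg.IsFieldAutPSUOf σ β) : β = fAU σ := by
  refine mulAut_psu_ext fun s => ?_
  rw [fAU_mk']
  exact h s _ rfl

lemma inndiagPSU_eq : Cfsg.inndiagPSU n F q = (cGU : ↥(Cfsg.GU n F q) →* _).range := by
  apply le_antisymm
  · unfold Cfsg.inndiagPSU Cfsg.autSubgroupOf
    rw [Subgroup.closure_le]
    intro β hβ
    obtain ⟨g, rfl⟩ := eq_cGU_of_isInnerDiagonal hβ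
    exact ⟨g, rfl⟩
  · rintro _ ⟨g, rfl⟩
    exact Subgroup.subset_closure (isInnerDiagonal_cGU g)

end Cfsg.Agent.Lib.Helper43.PU
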