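import Cfsg.Agent.Lib.Helper5.SUTorus
import Cfsg.Agent.Lib.Helper43.PU.Basic

set_option autoImplicit false
set_option linter.unusedSectionVars false

/-!
Unitary geometry and transvections modulo the centre of `SU_n(q)`.
-/

namespace Cfsg.Agent.Lib.Helper43.PU

open Matrix Module Cfsg.Agent.Lib.Helper43.PA Cfsg.Agent.Lib.Helper5 Cfsg.Agent.Lib.Helper13
  Cfsg.Agent.Lib.Helper94 Cfsg.Agent.Lib.Helper94.U Cfsg.Agent.Lib.Helper45.SUGen

variable {F : Type*} [Field F] [Fintype F] {q n : ℕ}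

local notation "H" => Cfsg.hermForm n F q
local notation "V" => (Fin n → F)
local notation "G" => Cfsg.SU n F q

/-- a hyperbolic partner. -/
lemma exists_partner (hF : Fintype.card F = q ^ 2) {e : V} (he0 : e ≠ 0) (he : H e e = 0) :
    ∃ f : V, H f f = 0 ∧ H e f = 1 ∧ H f e = 1 := by
  obtain ⟨a, ha⟩ := exists_hermForm_ne_zero hF he0
  obtain ⟨l, hl⟩ := exists_isotropic_add_smul hF he ha
  have h1 : H (a + l • e) e = H a e := by
    rw [hermForm_add_left, hermForm_smul_left, he, mul_zero, add_zero]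
  refine ⟨(H a e)⁻¹ • (a + l • e), ?_, ?_, ?_⟩
  · rw [hermForm_smul_left, hermForm_smul_right, hl]; simp
  · rw [← hermForm_swap hF, hermForm_smul_left, h1, inv_mul_cancel₀ ha, one_pow]
  · rw [hermForm_smul_left, h1, inv_mul_cancel₀ ha]

lemma exists_hyp_pair (hF : Fintype.card F = q ^ 2) (hn : 3 ≤ n) :
    ∃ e f : V, e ≠ 0 ∧ H e e = 0 ∧ H f f = 0 ∧ H e f = 1 ∧ H f e = 1 := by
  obtain ⟨e, he0, he⟩ := exists_isotropic_ne_zero hF hn
  obtain ⟨f, hf, h1, h2⟩ := exists_partner hF he0 he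
  exact ⟨e, f, he0, he, hf, h1, h2⟩

/-- an anisotropic vector orthogonal to a hyperbolic pair. -/
lemma exists_aniso_perp_pair (hF : Fintype.card F = q ^ 2) (hn : 3 ≤ n) {e f : V} (he : H e e = 0)
    (hef : H e f = 1) : ∃ d : V, H d e = 0 ∧ H d f = 0 ∧ H d d ≠ 0 := by
  obtain ⟨w, hwe, hww⟩ := exists_nonisotropic_perp_vec hF hn e
  have hew : H e w = 0 := hermForm_eq_zero_comm hF hwe
  refine ⟨w - H w f • e, ?_, ?_, ?_⟩
  · rw [hermForm_sub_left, hermForm_smul_left, hwe, he]; ring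
  · rw [hermForm_sub_left, hermForm_smul_left, hef]; ring
  · simp only [hermForm_sub_left, hermForm_sub_right hF, hermForm_smul_left, hermForm_smul_right,
      hwe, he, hew]
    simpa using hww

/-- vectors of any norm orthogonal to a hyperbolic pair. -/
lemma exists_norm_perp_pair (hF : Fintype.card F = q ^ 2) (hn : 3 ≤ n) {e f : V} (he : H e e = 0)
    (hef : H e f = 1) (r : F) (hr : r ^ q = r) : ∃ w : V, H w e = 0 ∧ H w f = 0 ∧ H w w = r := by
  by_cases hr0 : r = 0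
  · exact ⟨0, hermForm_zero_left _, hermForm_zero_left _, by rw [hermForm_zero_left, hr0]⟩
  obtain ⟨d, hde, hdf, hdd⟩ := exists_aniso_perp_pair hF hn he hef
  obtain ⟨l, -, hl⟩ := exists_norm_eq hF (r / H d d) (div_ne_zero hr0 hdd)
    (by rw [div_pow, hr, hermForm_self_pow hF])
  refine ⟨l • d, ?_, ?_, ?_⟩
  · rw [hermForm_smul_left, hde, mul_zero]
  · rw [hermForm_smul_left, hdf, mul_zero]
  · rw [hermForm_smul_left, hermForm_smul_right, ← mul_assoc, ← pow_succ', hl,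
      div_mul_cancel₀ _ hdd]

/-- a vector orthogonal to all isotropic vectors vanishes. -/
lemma eq_zero_of_perp_isotropic (hF : Fintype.card F = q ^ 2) (hn : 3 ≤ n) {y : V}
    (h : ∀ v : V, H v v = 0 → H y v = 0) : y = 0 := by
  by_contra hy
  by_cases hyy : H y y = 0
  · obtain ⟨f, hf, h1, -⟩ := exists_partner hF hy hyy
    rw [h f hf] at h1
    exact zero_ne_one h1
  · obtain ⟨z, hzy, hzz⟩ := exists_nonisotropic_perp_vec hF hn y
    obtain ⟨l, -, hl⟩ := exists_norm_eq hF (-H y y / H z z) (div_ne_zero (neg_ne_zero.mpr hyy) hzz)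
      (by rw [div_pow, neg_pow_q hF, hermForm_self_pow hF, hermForm_self_pow hF])
    have hyz : H y z = 0 := hermForm_eq_zero_comm hF hzy
    have hlz : H (l • z) (l • z) = -H y y := by
      rw [hermForm_smul_left, hermForm_smul_right, ← mul_assoc, ← pow_succ', hl,
        div_mul_cancel₀ _ hzz]
    have h1 := h (y + l • z) (by
      rw [hermForm_add_left, hermForm_add_right hF, hermForm_add_right hF, hlz,
        hermForm_smul_right, hermForm_smul_left, hyz, hzy]; ring)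
    rw [hermForm_add_right hF, hermForm_smul_right, hyz, mul_zero, add_zero] at h1
    exact hyy h1

/-- a non-zero vector orthogonal to two given ones. -/
lemma exists_perp_two (hF : Fintype.card F = q ^ 2) (hn : 3 ≤ n) (u v : V) :
    ∃ x : V, x ≠ 0 ∧ H x u = 0 ∧ H x v = 0 := by
  have h1 := finrank_perp (hermH hF n) (Submodule.span F {u, v})
  have h2 : finrank F (Submodule.span F ({u, v} : Set V)) ≤ 2 := by
    classical
    have : finrank F (Submodule.span F ((({u, v} : Finset V) : Set V))) ≤ ({u, v} : Finset V).card :=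
      finrank_span_finset_le_card (R := F) ({u, v} : Finset V)
    have h3 : ({u, v} : Finset V).card ≤ 2 := Finset.card_le_two
    have h4 : ((({u, v} : Finset V) : Set V)) = {u, v} := by simp
    rw [h4] at this
    omega
  rw [Module.finrank_fin_fun] at h1
  have h3 : 0 < finrank F (perp (hermB hF n) (Submodule.span F {u, v})) := by omega
  obtain ⟨x, hx⟩ := Module.finrank_pos_iff_exists_ne_zero.mp h3
  refine ⟨x.1, fun h => hx (Subtype.ext h), ?_, ?_⟩
  · exact x.2 u (Submodule.subset_span (by simp))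
  · exact x.2 v (Submodule.subset_span (by simp))

/-! ### equality modulo the centre -/

lemma exists_scalar_of_mk_eq (hF : Fintype.card F = q ^ 2) {s t : G}
    (h : (QuotientGroup.mk s : Cfsg.PSU n F q) = QuotientGroup.mk t) :
    ∃ a : F, ∀ x, t.1.1 *ᵥ x = a • (s.1.1 *ᵥ x) := by
  obtain ⟨a, ha⟩ := SU_center_scalar hF _ (QuotientGroup.eq.mp h)
  refine ⟨a, fun x => ?_⟩
  have h1 : t = s * (s⁻¹ * t) := by group
  conv_lhs => rw [h1]
  rw [SU_mul_mulVec, ha]
  have : (Matrix.scalar (Fin n) a) *ᵥ x = a • x := by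
    rw [Matrix.scalar_apply, ← Matrix.smul_one_eq_diagonal, smul_mulVec, one_mulVec]
  rw [this, mulVec_smul]

lemma eq_of_mk_eq_of_fix (hF : Fintype.card F = q ^ 2) {s t : G}
    (h : (QuotientGroup.mk s : Cfsg.PSU n F q) = QuotientGroup.mk t) {x : V} (hx : x ≠ 0)
    (hs : s.1.1 *ᵥ x = x) (ht : t.1.1 *ᵥ x = x) : s = t := by
  obtain ⟨a, ha⟩ := exists_scalar_of_mk_eq hF h
  have h1 := ha x
  rw [hs, ht] at h1
  have h2 : (1 - a) • x = 0 := by rw [sub_smul, one_smul, ← h1, sub_self]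
  have h3 : a = 1 := by
    rcases smul_eq_zero.mp h2 with h | h
    · exact (sub_eq_zero.mp h).symm
    · exact absurd h hx
  apply SU_ext_mulVec
  intro y
  rw [ha y, h3, one_smul]

lemma tSU_eq_of_mk_eq (hF : Fintype.card F = q ^ 2) (hn : 3 ≤ n) {u v : V} {c d : F}
    (hu : H u u = 0) (hv : H v v = 0) (hc : c + c ^ q = 0) (hd : d + d ^ q = 0)
    (h : (QuotientGroup.mk (tSU hF u c hu hc) : Cfsg.PSU n F q) =
      QuotientGroup.mk (tSU hF v d hv hd)) : tSU hF u c hu hc = tSU hF v d hv hd := by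
  obtain ⟨x, hx, h1, h2⟩ := exists_perp_two hF hn u v
  refine eq_of_mk_eq_of_fix hF h hx ?_ ?_
  · rw [tSU_mulVec, h1]; simp
  · rw [tSU_mulVec, h2]; simp

lemma tSU_ne_one (hF : Fintype.card F = q ^ 2) {u : V} {c : F} (hu0 : u ≠ 0) (hc0 : c ≠ 0)
    (hu : H u u = 0) (hc : c + c ^ q = 0) : tSU hF u c hu hc ≠ 1 := by
  intro h
  obtain ⟨x, hx⟩ := exists_hermForm_ne_zero hF hu0
  have h3 := congrArg (fun A : G => A.1.1 *ᵥ x) h
  simp only [tSU_mulVec, SU_one_mulVec] at h3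
  have h4 : (c * H x u) • u = 0 := by simpa using h3
  rcases smul_eq_zero.1 h4 with h | h
  · exact (mul_ne_zero hc0 hx) h
  · exact hu0 h

lemma mk_tSU_ne_one (hF : Fintype.card F = q ^ 2) (hn : 3 ≤ n) {u : V} {c : F} (hu0 : u ≠ 0)
    (hc0 : c ≠ 0) (hu : H u u = 0) (hc : c + c ^ q = 0) :
    (QuotientGroup.mk (tSU hF u c hu hc) : Cfsg.PSU n F q) ≠ 1 := by
  intro h
  apply tSU_ne_one hF hu0 hc0 hu hc
  have h1 := tSU_eq_of_mk_eq hF hn hu hu hc (zero_skew hF)
    (by rw [h, tSU_zero, QuotientGroup.mk_one])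
  rw [h1, tSU_zero]

/-- equal transvections have proportional centres. -/
lemma par_of_tSU_eq (hF : Fintype.card F = q ^ 2) {u v : V} {c d : F} (hu0 : u ≠ 0) (hc0 : c ≠ 0)
    (hu : H u u = 0) (hv : H v v = 0) (hc : c + c ^ q = 0) (hd : d + d ^ q = 0)
    (h : tSU hF u c hu hc = tSU hF v d hv hd) : ∃ a : F, a ≠ 0 ∧ u = a • v := by
  obtain ⟨x, hx⟩ := exists_hermForm_ne_zero hF hu0
  have h3 := congrArg (fun A : G => A.1.1 *ᵥ x) h
  simp only [tSU_mulVec] at h3
  have h4 : (c * H x u) • u = (d * H x v) • v := add_left_cancel h3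
  have h5 : c * H x u ≠ 0 := mul_ne_zero hc0 hx
  refine ⟨(c * H x u)⁻¹ * (d * H x v), ?_, ?_⟩
  · intro h0
    rcases mul_eq_zero.mp h0 with h | h
    · exact inv_ne_zero h5 h
    · rw [h, zero_smul] at h4
      rcases smul_eq_zero.1 h4 with h | h
      · exact h5 h
      · exact hu0 h
  · rw [mul_smul, ← h4, smul_smul, inv_mul_cancel₀ h5, one_smul]

/-! ### the action of the standard automorphisms on transvections -/

lemma gu_preserves' (g : ↥(Cfsg.GU n F q)) (x y : V) : H (g.1.1 *ᵥ x) (g.1.1 *ᵥ y) = H x y :=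
  g.2 x y

lemma gu_inv_mulVec (g : ↥(Cfsg.GU n F q)) (x : V) : g.1.1 *ᵥ ((g⁻¹).1.1 *ᵥ x) = x := by
  rw [mulVec_mulVec]
  have : g.1.1 * (g⁻¹).1.1 = 1 := by
    show g.1.1 * (g.1⁻¹ : GL (Fin n) F).1 = 1
    rw [← Units.val_mul, mul_inv_cancel]; rfl
  rw [this, one_mulVec]

lemma conjSU_mulVec (g : ↥(Cfsg.GU n F q)) (s : G) (x : V) :
    (conjSU g s).1.1 *ᵥ x = g.1.1 *ᵥ (s.1.1 *ᵥ ((g⁻¹).1.1 *ᵥ x)) := by
  rw [conjSU_coe, conjSL_coe, ← mulVec_mulVec, ← mulVec_mulVec]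
  rfl

lemma conjSU_tSU (hF : Fintype.card F = q ^ 2) (g : ↥(Cfsg.GU n F q)) (v : V) (c : F)
    (hv : H v v = 0) (hc : c + c ^ q = 0) :
    conjSU g (tSU hF v c hv hc) = tSU hF (g.1.1 *ᵥ v) c (by rw [gu_preserves', hv]) hc := by
  apply SU_ext_mulVec
  intro x
  rw [conjSU_mulVec, tSU_mulVec, tSU_mulVec, mulVec_add, mulVec_smul, gu_inv_mulVec]
  congr 3
  rw [← gu_preserves' g, gu_inv_mulVec]

lemma skew_map (σ : F ≃+* F) {c : F} (hc : c + c ^ q = 0) : σ c + σ c ^ q = 0 := by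
  rw [← map_pow, ← map_add, hc, map_zero]

lemma fieldSU_mulVec (σ : F ≃+* F) (s : G) (x : V) :
    (fieldSU σ s).1.1 *ᵥ x = ⇑σ ∘ (s.1.1 *ᵥ (⇑σ.symm ∘ x)) := by
  rw [fieldSU_coe, fieldSL_coe, ← map_mulVec_comp, comp_symm_comp]

lemma fieldSU_tSU (hF : Fintype.card F = q ^ 2) (σ : F ≃+* F) (v : V) (c : F)
    (hv : H v v = 0) (hc : c + c ^ q = 0) :
    fieldSU σ (tSU hF v c hv hc) =
      tSU hF (⇑σ ∘ v) (σ c) (by rw [hermForm_comp, hv, map_zero]) (skew_map σ hc) := by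
  apply SU_ext_mulVec
  intro x
  rw [fieldSU_mulVec, tSU_mulVec, tSU_mulVec]
  have h1 : H x (⇑σ ∘ v) = σ (H (⇑σ.symm ∘ x) v) := by
    rw [← hermForm_comp, comp_symm_comp]
  rw [h1]
  funext i
  simp

end Cfsg.Agent.Lib.Helper43.PU
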