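import Cfsg.Agent.Lib.Helper43.PA.GFCent
import Cfsg.Agent.Lib.Helper43.PA.FixField

set_option autoImplicit false
set_option linter.unusedSectionVars false

/-!
The involution `x ↦ x ^ q` of a field with `q ^ 2` elements, its restriction to the fixed field of
an automorphism of odd order, and the cohomology of the norm-one group.
-/

namespace Cfsg.Agent.Lib.Helper43.PU

open Matrix Cfsg.Agent.Lib.Helper43.PA Cfsg.Agent.Lib.Helper13

variable {F : Type*} [Field F] [Fintype F] {q : ℕ}

/-- the involution `x ↦ x ^ q`. -/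
noncomputable def barE (hF : Fintype.card F = q ^ 2) : F ≃+* F :=
  { frobQ hF with
    invFun := fun t => t ^ q
    left_inv := fun t => pow_q_pow_q hF t
    right_inv := fun t => pow_q_pow_q hF t }

lemma barE_apply (hF : Fintype.card F = q ^ 2) (t : F) : barE hF t = t ^ q := rfl

lemma barE_ne_one (hF : Fintype.card F = q ^ 2) : barE hF ≠ 1 := by
  intro h
  apply frobQ_ne_id hF
  ext t
  exact DFunLike.congr_fun h t

lemma barE_mul_self (hF : Fintype.card F = q ^ 2) : barE hF * barE hF = 1 := by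
  ext t
  exact pow_q_pow_q hF t

lemma orderOf_barE (hF : Fintype.card F = q ^ 2) : orderOf (barE hF) = 2 :=
  orderOf_eq_prime (by rw [sq]; exact barE_mul_self hF) (barE_ne_one hF)

lemma barE_comm (hF : Fintype.card F = q ^ 2) (σ : F ≃+* F) : σ * barE hF = barE hF * σ := by
  ext t
  show σ (t ^ q) = (σ t) ^ q
  rw [map_pow]

/-- the restriction of the involution to the fixed field of `σ`. -/
noncomputable def bar1 (hF : Fintype.card F = q ^ 2) (σ : F ≃+* F) : fixK σ ≃+* fixK σ where
  toFun x := ⟨x.1 ^ q, mem_fixK.2 (by rw [map_pow, mem_fixK.1 x.2])⟩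
  invFun x := ⟨x.1 ^ q, mem_fixK.2 (by rw [map_pow, mem_fixK.1 x.2])⟩
  left_inv x := Subtype.ext (pow_q_pow_q hF x.1)
  right_inv x := Subtype.ext (pow_q_pow_q hF x.1)
  map_mul' x y := Subtype.ext (mul_pow x.1 y.1 q)
  map_add' x y := Subtype.ext (add_pow_q hF x.1 y.1)

lemma bar1_coe (hF : Fintype.card F = q ^ 2) (σ : F ≃+* F) (x : fixK σ) :
    ((bar1 hF σ x : fixK σ) : F) = (x : F) ^ q := rfl

lemma bar1_mul_self (hF : Fintype.card F = q ^ 2) (σ : F ≃+* F) : bar1 hF σ * bar1 hF σ = 1 := by
  ext x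
  exact pow_q_pow_q hF x.1

/-- for `σ` of odd order the involution is non-trivial on the fixed field. -/
lemma bar1_ne_one {p f : ℕ} [hp : Fact p.Prime] (hq : q = p ^ f) (hf : 1 ≤ f)
    (hF : Fintype.card F = q ^ 2) (σ : F ≃+* F) (hodd : Odd (orderOf σ)) : bar1 hF σ ≠ 1 := by
  intro h
  have hF' : Fintype.card F = p ^ (2 * f) := by rw [hF, hq, ← pow_mul, mul_comm]
  have hfin : Finite (F ≃+* F) := Finite.of_injective (fun e => (e : F → F)) DFunLike.coe_injective
  have hfix : ∀ x : F, σ x = x → x ^ q = x := by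
    intro x hx
    have h1 : bar1 hF σ ⟨x, mem_fixK.2 hx⟩ = ⟨x, mem_fixK.2 hx⟩ := by rw [h]; rfl
    exact congrArg Subtype.val h1
  have hcomm : Commute σ (barE hF) := barE_comm hF σ
  have hord : orderOf (σ * barE hF) = orderOf σ * 2 := by
    rw [hcomm.orderOf_mul_eq_mul_orderOf_of_coprime, orderOf_barE]
    rw [orderOf_barE]
    exact Nat.Coprime.symm (Nat.coprime_two_left.mpr hodd)
  have hset : fixK (σ * barE hF) = fixK σ := by
    ext x
    rw [mem_fixK, mem_fixK]
    constructor
    · intro hx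
      -- `σ = (σ bar)^(r+1)`
      obtain ⟨m, hm⟩ := hodd
      have h1 : (σ * barE hF) ^ (orderOf σ + 1) = σ := by
        rw [hcomm.mul_pow, pow_succ, pow_orderOf_eq_one, one_mul, hm,
          show 2 * m + 1 + 1 = 2 * (m + 1) by ring, pow_mul, sq, barE_mul_self, one_pow, mul_one]
      have h2 : ∀ k : ℕ, ((σ * barE hF) ^ k) x = x := by
        intro k
        induction k with
        | zero => rfl
        | succ k ih => rw [pow_succ, RingAut.mul_apply, hx, ih]
      rw [← h1]
      exact h2 _
    · intro hx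
      show σ (x ^ q) = x
      rw [hfix x hx, hx]
  have c1 := card_fixK hF' (by omega) (σ * barE hF)
  have c2 := card_fixK hF' (by omega) σ
  rw [hset, c2, hord] at c1
  have c3 := Nat.pow_right_injective hp.out.two_le c1
  obtain ⟨m, hm⟩ : orderOf σ * 2 ∣ 2 * f := hord ▸ orderOf_dvd_of_card hF' (σ * barE hF)
  have hpos : 0 < orderOf σ := orderOf_pos σ
  rw [hm, Nat.mul_div_cancel_left _ (by omega), mul_assoc, Nat.mul_div_cancel_left _ hpos] at c3
  have : m = 0 := by omega
  rw [this] at hm
  omega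

end Cfsg.Agent.Lib.Helper43.PU
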