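import Cfsg.Agent.Lib.Helper43.PU.Lang

set_option autoImplicit false
set_option linter.unusedSectionVars false

/-!
S2711 from the factorisation of automorphisms of `PSU_n(q)`.
-/

namespace Cfsg.Agent.Lib.Helper43.PU

open Matrix Cfsg.Agent.Lib.Helper43.PA

variable {F : Type*} [Field F] {q n : ℕ}

lemma fac_of_factorization
    (h : ∀ β : MulAut (Cfsg.PSU n F q), ∃ (δ φ : MulAut (Cfsg.PSU n F q)) (σ : F ≃+* F),
      Cfsg.IsInnerDiagonalAutPSU δ ∧ Cfsg.IsFieldAutPSUOf σ φ ∧ β = δ * φ) : Fac n F q := by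
  intro β
  obtain ⟨δ, φ, σ, hδ, hφ, rfl⟩ := h β
  obtain ⟨g, rfl⟩ := eq_cGU_of_isInnerDiagonal hδ
  exact ⟨g, σ, by rw [eq_fAU_of_isFieldAut hφ]⟩

variable [Fintype F]

theorem range_cGU_normal (hfac : Fac n F q) : ((cGU : ↥(Cfsg.GU n F q) →* _).range).Normal := by
  constructor
  intro d hd α
  obtain ⟨g, σ, h⟩ := hfac α
  rw [h]
  have h1 := fAU_normalizes σ hd
  have h2 : cGU g * fAU σ * d * (cGU g * fAU σ)⁻¹ = cGU g * (fAU σ * d * (fAU σ)⁻¹) * (cGU g)⁻¹ := by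
    group
  rw [h2]
  exact Subgroup.mul_mem _ (Subgroup.mul_mem _ ⟨g, rfl⟩ h1) (Subgroup.inv_mem _ ⟨g, rfl⟩)

lemma fAU_injective (hF : Fintype.card F = q ^ 2) (hn : 3 ≤ n) :
    Function.Injective (fAU : (F ≃+* F) →* MulAut (Cfsg.PSU n F q)) := by
  rw [injective_iff_map_eq_one]
  intro σ h
  exact fAU_mem_range_cGU hF hn (h ▸ Subgroup.one_mem _)

theorem row_S2711 {p f : ℕ} [Fact p.Prime] (hq : q = p ^ f) (hf : 1 ≤ f)
    (hF : Fintype.card F = q ^ 2) (hn : 3 ≤ n) (hfac : Fac n F q)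
    (x δ : MulAut (Cfsg.PSU n F q)) (hx : Cfsg.IsFieldAutClassPSU x) {r : ℕ}
    (hxr : orderOf x = r) (hδ : δ ∈ Cfsg.inndiagPSU n F q) :
    orderOf (δ * x) = r ↔ Cfsg.IsConjUnder (Cfsg.inndiagPSU n F q) x (δ * x) := by
  rw [inndiagPSU_eq] at hδ ⊢
  constructor
  · intro hy
    have hD := range_cGU_normal hfac
    have hy' : (δ * x) ^ r = 1 := hy ▸ pow_orderOf_eq_one _
    obtain ⟨α, φ, σ, hσ, hodd, hstd, e⟩ := hx
    rw [eq_fAU_of_isFieldAut hstd] at e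
    have hord : orderOf σ = r := by
      rw [← orderOf_injective fAU (fAU_injective (n := n) hF hn) σ, ← e, orderOf_conj', hxr]
    refine conj_transport _ e hδ ?_ hy'
    rintro _ ⟨g, rfl⟩ hg
    rw [← hord] at hg
    obtain ⟨h, hh⟩ := field_coset_U hq hf hF σ hodd hn g hg
    exact ⟨cGU h, ⟨h, rfl⟩, hh⟩
  · rintro ⟨h, -, e⟩
    rw [e, orderOf_conj', hxr]

end Cfsg.Agent.Lib.Helper43.PU
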