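import Cfsg.Agent.Lib.Helper43.PU.Rigid
import Cfsg.Agent.Lib.Helper43.PA.Count
import Cfsg.Agent.Lib.Helper43.PA.FieldAut
import Cfsg.Agent.Lib.Helper43.PA.H90Scalar
import Cfsg.Prelude.Def_KGroupFacts

set_option autoImplicit false
set_option linter.unusedSectionVars false

/-!
The structure of `Aut(PSU_n(q))` and `Out(PSU_n(q))`, from the factorisation of automorphisms.
-/

namespace Cfsg.Agent.Lib.Helper43.PU

open Matrix Module Cfsg.Agent.Lib.Helper43.PA Cfsg.Agent.Lib.Helper5 Cfsg.Agent.Lib.Helper13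
  Cfsg.Agent.Lib.Helper94 Cfsg.Agent.Lib.Helper94.U Cfsg.Agent.Lib.Helper45.SUGen

variable {F : Type*} [Field F] [Fintype F] {q n : ℕ}

local notation "H" => Cfsg.hermForm n F q
local notation "V" => (Fin n → F)
local notation "G" => Cfsg.SU n F q

/-- every automorphism of `PSU_n(q)` is a product of an inner-diagonal and a field automorphism. -/
def Fac (n : ℕ) (F : Type*) [Field F] (q : ℕ) : Prop :=
  ∀ β : MulAut (Cfsg.PSU n F q), ∃ (g : ↥(Cfsg.GU n F q)) (σ : F ≃+* F), β = cGU g * fAU σ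

lemma cGU_eq_one_of_scalar {g : ↥(Cfsg.GU n F q)} {a : F} (h : ∀ x : V, g.1.1 *ᵥ x = a • x) :
    cGU g = 1 := by
  apply mulAut_psu_ext
  intro s
  rw [cGU_mk']
  congr 1
  apply SU_ext_mulVec
  intro x
  rw [conjSU_mulVec, h, ← mulVec_smul, ← h, gu_inv_mulVec]

lemma cGU_eq_one_iff (hF : Fintype.card F = q ^ 2) (hn : 3 ≤ n) (g : ↥(Cfsg.GU n F q)) :
    cGU g = 1 ↔ ∃ a : F, ∀ x : V, g.1.1 *ᵥ x = a • x := by
  constructor
  · intro h
    exact (rigid hF hn (g := g) (σ := 1) (by rw [h, map_one, one_mul])).2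
  · rintro ⟨a, ha⟩
    exact cGU_eq_one_of_scalar ha

lemma scGL_mulVec (u : Fˣ) (x : V) : (scGL u : GL (Fin n) F).1 *ᵥ x = (u : F) • x := by
  rw [scGL_coe, Matrix.scalar_apply, ← Matrix.smul_one_eq_diagonal, smul_mulVec, one_mulVec]

lemma scGL_mem_GU {u : Fˣ} (hu : u ^ (q + 1) = 1) : (scGL u : GL (Fin n) F) ∈ Cfsg.GU n F q := by
  rw [mem_GU_iff]
  intro x y
  rw [scGL_coe]
  apply scalar_preserves
  have := congrArg Units.val hu
  simpa using this

lemma card_ker_cGU (hF : Fintype.card F = q ^ 2) (hn : 3 ≤ n) :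
    Nat.card (cGU : ↥(Cfsg.GU n F q) →* _).ker = q + 1 := by
  rw [← card_norm_one_units hF]
  symm
  let φ : {x : Fˣ // x ^ (q + 1) = 1} → (cGU : ↥(Cfsg.GU n F q) →* _).ker := fun x =>
    ⟨⟨scGL x.1, scGL_mem_GU x.2⟩, cGU_eq_one_of_scalar (a := (x.1 : F)) (fun y => scGL_mulVec x.1 y)⟩
  apply Nat.card_congr (Equiv.ofBijective φ ⟨?_, ?_⟩)
  · intro x y hxy
    have h1 : (scGL x.1 : GL (Fin n) F) = scGL y.1 := congrArg (fun z => z.1.1) hxy
    have h2 := congrArg (fun z : GL (Fin n) F => z.1 ⟨0, by omega⟩ ⟨0, by omega⟩) h1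
    simp only [scGL_coe, Matrix.scalar_apply, Matrix.diagonal_apply_eq] at h2
    exact Subtype.ext (Units.ext h2)
  · rintro ⟨g, hg⟩
    obtain ⟨a, ha⟩ := (cGU_eq_one_iff hF hn g).mp hg
    obtain ⟨e, f, he0, he, hf, hef, hfe⟩ := exists_hyp_pair (n := n) hF hn
    have hN : a ^ (q + 1) = 1 := by
      have := gu_preserves' g e f
      rw [ha, ha, hermForm_smul_left, hermForm_smul_right, hef] at this
      rw [pow_succ']
      linear_combination this
    have ha0 : a ≠ 0 := by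
      rintro rfl
      rw [zero_pow (by omega)] at hN
      exact zero_ne_one hN
    refine ⟨⟨Units.mk0 a ha0, Units.ext (by simpa using hN)⟩, ?_⟩
    apply Subtype.ext
    apply Subtype.ext
    apply Units.ext
    apply mat_ext_mulVec
    intro x
    rw [ha]
    exact scGL_mulVec _ x

lemma card_range_cGU (hF : Fintype.card F = q ^ 2) (hn : 3 ≤ n) :
    Nat.card (cGU : ↥(Cfsg.GU n F q) →* _).range = Nat.card G := by
  have h1 := Subgroup.card_eq_card_quotient_mul_card_subgroup (cGU : ↥(Cfsg.GU n F q) →* _).ker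
  rw [Nat.card_congr (QuotientGroup.quotientKerEquivRange (cGU : ↥(Cfsg.GU n F q) →* _)).toEquiv,
    card_ker_cGU hF hn, ← card_SU_mul hF (by omega : 1 ≤ n), mul_comm] at h1
  exact (Nat.eq_of_mul_eq_mul_right (by omega) h1).symm

lemma fAU_normalizes (σ : F ≃+* F) {d : MulAut (Cfsg.PSU n F q)}
    (hd : d ∈ (cGU : ↥(Cfsg.GU n F q) →* _).range) :
    fAU σ * d * (fAU σ)⁻¹ ∈ (cGU : ↥(Cfsg.GU n F q) →* _).range := by
  obtain ⟨g, rfl⟩ := hd
  exact ⟨mapGU σ g, by rw [fAU_mul_cGU, mul_inv_cancel_right]⟩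

lemma fAU_mem_range_cGU (hF : Fintype.card F = q ^ 2) (hn : 3 ≤ n) {σ : F ≃+* F}
    (h : (fAU σ : MulAut (Cfsg.PSU n F q)) ∈ (cGU : ↥(Cfsg.GU n F q) →* _).range) : σ = 1 := by
  obtain ⟨g, hg⟩ := h
  exact (rigid hF hn (g := g⁻¹) (σ := σ) (by rw [← hg, map_inv, inv_mul_cancel])).1

theorem theta (hF : Fintype.card F = q ^ 2) (hn : 3 ≤ n) (hfac : Fac n F q) :
    ∃ θ : MulAut (Cfsg.PSU n F q) →* (F ≃+* F),
      Function.Surjective θ ∧ θ.ker = (cGU : ↥(Cfsg.GU n F q) →* _).range := by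
  apply exists_hom_of_complement _ fAU
  · intro β
    obtain ⟨g, σ, h⟩ := hfac β
    exact ⟨cGU g, ⟨g, rfl⟩, σ, h⟩
  · intro σ d hd
    exact fAU_normalizes σ hd
  · intro σ h
    exact fAU_mem_range_cGU hF hn h

theorem card_aut_of_theta {E : Type*} [Group E] (hF : Fintype.card F = q ^ 2) (hn : 3 ≤ n)
    (θ : MulAut (Cfsg.PSU n F q) →* E) (hs : Function.Surjective θ)
    (hk : θ.ker = (cGU : ↥(Cfsg.GU n F q) →* _).range) :
    Nat.card (MulAut (Cfsg.PSU n F q)) = Nat.card E * Nat.card G := by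
  rw [Subgroup.card_eq_card_quotient_mul_card_subgroup θ.ker,
    Nat.card_congr (QuotientGroup.quotientKerEquivOfSurjective θ hs).toEquiv, hk,
    card_range_cGU hF hn]

lemma card_SU_eq (hF : Fintype.card F = q ^ 2) (hn : 1 ≤ n) :
    Nat.card G = Nat.card (Cfsg.PSU n F q) * Nat.gcd n (q + 1) := by
  rw [Subgroup.card_eq_card_quotient_mul_card_subgroup (Subgroup.center G), card_center_SU hF hn]

lemma conj_mk_eq_cGU (s : G) :
    MulAut.conj (QuotientGroup.mk s : Cfsg.PSU n F q) = cGU (suToGU n F q s) := by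
  apply mulAut_psu_ext
  intro t
  rw [MulAut.conj_apply]
  symm
  apply cGU_mk
  rfl

lemma conj_injective (hF : Fintype.card F = q ^ 2) (hn : 3 ≤ n) :
    Function.Injective (MulAut.conj : Cfsg.PSU n F q →* _) := by
  rw [injective_iff_map_eq_one]
  intro x hx
  obtain ⟨s, rfl⟩ := QuotientGroup.mk_surjective x
  rw [conj_mk_eq_cGU] at hx
  obtain ⟨a, ha⟩ := (cGU_eq_one_iff hF hn _).mp hx
  rw [QuotientGroup.eq_one_iff, Subgroup.mem_center_iff]
  intro t
  have ha' : ∀ x : V, s.1.1 *ᵥ x = a • x := ha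
  apply SU_ext_mulVec
  intro x
  rw [SU_mul_mulVec, SU_mul_mulVec, ha', ha', mulVec_smul]

theorem out_of_theta {E : Type*} [Group E] [Finite E] (hF : Fintype.card F = q ^ 2) (hn : 3 ≤ n)
    (θ : MulAut (Cfsg.PSU n F q) →* E) (hs : Function.Surjective θ)
    (hk : θ.ker = (cGU : ↥(Cfsg.GU n F q) →* _).range) :
    ∃ φ : Cfsg.Out (Cfsg.PSU n F q) →* E, Function.Surjective φ ∧
      IsCyclic φ.ker ∧ Nat.card φ.ker = Nat.gcd n (q + 1) := by
  have : Finite (SpecialLinearGroup (Fin n) F) := Subtype.finite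
  have hInn : Cfsg.Inn (Cfsg.PSU n F q) ≤ θ.ker := by
    rintro _ ⟨x, rfl⟩
    obtain ⟨s, rfl⟩ := QuotientGroup.mk_surjective x
    rw [hk, conj_mk_eq_cGU]
    exact ⟨_, rfl⟩
  let φ := QuotientGroup.lift (Cfsg.Inn (Cfsg.PSU n F q)) θ hInn
  have hφs : Function.Surjective φ := QuotientGroup.lift_surjective_of_surjective _ θ hs hInn
  let κ : ↥(Cfsg.GU n F q) →* Cfsg.Out (Cfsg.PSU n F q) := (QuotientGroup.mk' _).comp cGU
  have hker : φ.ker = κ.range := by
    rw [QuotientGroup.ker_lift, hk, MonoidHom.map_range]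
  have hκ : (detGU n F q).rangeRestrict.ker ≤ κ.ker := by
    intro g hg
    rw [MonoidHom.ker_rangeRestrict, ← range_suToGU] at hg
    obtain ⟨s, rfl⟩ := hg
    rw [MonoidHom.mem_ker]
    show QuotientGroup.mk' _ (cGU (suToGU n F q s)) = 1
    rw [← conj_mk_eq_cGU]
    exact (QuotientGroup.eq_one_iff _).mpr ⟨_, rfl⟩
  let κ' : (detGU n F q).range →* Cfsg.Out (Cfsg.PSU n F q) :=
    (detGU n F q).rangeRestrict.liftOfSurjective (detGU n F q).rangeRestrict_surjective ⟨κ, hκ⟩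
  have hκ' : ∀ g, κ' ((detGU n F q).rangeRestrict g) = κ g := fun g =>
    MonoidHom.liftOfRightInverse_comp_apply _ _ _ ⟨κ, hκ⟩ g
  have hrange : κ.range = κ'.range := by
    ext y
    constructor
    · rintro ⟨g, rfl⟩
      exact ⟨_, hκ' g⟩
    · rintro ⟨u, rfl⟩
      obtain ⟨g, rfl⟩ := (detGU n F q).rangeRestrict_surjective u
      exact ⟨g, (hκ' g).symm⟩
  have hcyc : IsCyclic κ'.range :=
    isCyclic_of_surjective κ'.rangeRestrict κ'.rangeRestrict_surjective
  refine ⟨φ, hφs, ?_, ?_⟩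
  · rw [hker, hrange]; exact hcyc
  · have c1 := card_aut_of_theta hF hn θ hs hk
    have c2 := Subgroup.card_eq_card_quotient_mul_card_subgroup (Cfsg.Inn (Cfsg.PSU n F q))
    have c3 := Subgroup.card_eq_card_quotient_mul_card_subgroup φ.ker
    rw [Nat.card_congr (QuotientGroup.quotientKerEquivOfSurjective φ hφs).toEquiv] at c3
    have c4 : Nat.card (Cfsg.Inn (Cfsg.PSU n F q)) = Nat.card (Cfsg.PSU n F q) :=
      (Nat.card_congr (MonoidHom.ofInjective (conj_injective hF hn)).toEquiv).symm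
    rw [card_SU_eq hF (by omega)] at c1
    rw [c2, c3, c4] at c1
    have hE : 0 < Nat.card E := Nat.card_pos
    have hP : 0 < Nat.card (Cfsg.PSU n F q) := Nat.card_pos
    have c6 : Nat.card E * Nat.card (Cfsg.PSU n F q) * Nat.card φ.ker =
        Nat.card E * Nat.card (Cfsg.PSU n F q) * Nat.gcd n (q + 1) := by
      have c1' : Nat.card E * Nat.card φ.ker * Nat.card (Cfsg.PSU n F q) =
        Nat.card E * (Nat.card (Cfsg.PSU n F q) * Nat.gcd n (q + 1)) := c1
      linarith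
    exact Nat.eq_of_mul_eq_mul_left (Nat.mul_pos hE hP) c6

end Cfsg.Agent.Lib.Helper43.PU
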