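import Cfsg.Agent.Lib.Helper43.PU.Count

set_option autoImplicit false

/-!
The four rows S2691 S2692 S0815 S2603 from the factorisation `Fac n F q`.
-/

namespace Cfsg.Agent.Lib.Helper43.PU

open Cfsg.Agent.Lib.Helper43.PA

theorem row_S2692 {F : Type*} [Field F] {q n : ℕ} (hfac : Fac n F q)
    (β : MulAut (Cfsg.PSU n F q)) :
    ∃ (δ φ : MulAut (Cfsg.PSU n F q)) (σ : F ≃+* F), Cfsg.IsInnerDiagonalAutPSU δ ∧
      Cfsg.IsFieldAutPSUOf σ φ ∧ β = δ * φ := by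
  obtain ⟨g, σ, h⟩ := hfac β
  exact ⟨cGU g, fAU σ, σ, isInnerDiagonal_cGU g, isFieldAut_fAU σ, h⟩

theorem row_S2691 {F : Type*} [Field F] {q n : ℕ} (hfac : Fac n F q) :
    Cfsg.gammaPSU n F q = ⊤ := by
  rw [eq_top_iff]
  intro β _
  obtain ⟨g, σ, rfl⟩ := hfac β
  exact Subgroup.subset_closure ⟨g.1, σ, g.2, isInduced_cGU_fAU g σ⟩

theorem row_S0815 {F : Type*} [Field F] [Fintype F] (p f : ℕ) [Fact p.Prime] {q : ℕ}
    (hq : q = p ^ f) (hF : Fintype.card F = q ^ 2) (n : ℕ) (hn : 3 ≤ n) (hfac : Fac n F q) :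
    Nat.card (MulAut (Cfsg.PSU n F q)) =
      Nat.gcd n (q + 1) * (2 * f) * Nat.card (Cfsg.PSU n F q) := by
  obtain ⟨θ, hs, hk⟩ := theta hF hn hfac
  have hF' : Fintype.card F = p ^ (2 * f) := by rw [hF, hq, ← pow_mul, mul_comm]
  rw [card_aut_of_theta hF hn θ hs hk, card_ringAut hF', card_SU_eq hF (by omega)]
  ring

theorem row_S2603 {K : Type*} [Field K] [Fintype K] {p f q n : ℕ} [Fact p.Prime] (hf : 1 ≤ f)
    (hq : q = p ^ f) (hK : Fintype.card K = q ^ 2) (hn : 3 ≤ n) (hfac : Fac n K q) :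
    ∃ φ : Cfsg.Out (Cfsg.PSU n K q) →* Multiplicative (ZMod (2 * f)), Function.Surjective φ ∧
      IsCyclic φ.ker ∧ Nat.card φ.ker = Nat.gcd n (q + 1) := by
  have : NeZero (2 * f) := ⟨by omega⟩
  obtain ⟨θ, hs, hk⟩ := theta hK hn hfac
  have hK' : Fintype.card K = p ^ (2 * f) := by rw [hK, hq, ← pow_mul, mul_comm]
  obtain ⟨e⟩ := exists_ringAut_equiv hK'
  have hk' : (e.toMonoidHom.comp θ).ker = θ.ker := by
    ext x
    rw [MonoidHom.mem_ker, MonoidHom.mem_ker]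
    exact map_eq_one_iff e e.injective
  exact out_of_theta hK hn (e.toMonoidHom.comp θ) (e.surjective.comp hs) (hk'.trans hk)

end Cfsg.Agent.Lib.Helper43.PU
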