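import Cfsg.Agent.Lib.Helper43.PU.Syl
import Cfsg.Agent.Lib.Helper5.PSUAut8

set_option autoImplicit false

/-!
`Aut(PSU_n(q)) = PGU_n(q) · Φ` : the factorisation `Fac n F q`.
-/

namespace Cfsg.Agent.Lib.Helper43.PU

open Cfsg.Agent.Lib.Helper5

theorem permX {F : Type*} [Field F] [Fintype F] {q n : ℕ} (hF : Fintype.card F = q ^ 2)
    {p : ℕ} [hp : Fact p.Prime] [CharP F p] (hn : 1 ≤ n) : PermX n F q hF := by
  intro β u hu0 hu
  obtain ⟨u', hu0', hu', h⟩ := aut_utGroup (p := p) hF hn β u hu0 hu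
  refine ⟨u', hu0', hu', fun c hc => ?_⟩
  have h1 : β (pmk (tSU hF u c hu hc)) ∈
      ((utGroup hF u hu).map (QuotientGroup.mk' (Subgroup.center _))).map β.toMonoidHom :=
    ⟨_, ⟨_, ⟨c, hc, rfl⟩, rfl⟩, rfl⟩
  rw [h] at h1
  obtain ⟨_, ⟨c', hc', rfl⟩, h2⟩ := h1
  exact ⟨c', hc', h2.symm⟩

theorem fac {F : Type*} [Field F] [Fintype F] {p f q : ℕ} [Fact p.Prime] (hq : q = p ^ f)
    (hf : 1 ≤ f) (hF : Fintype.card F = q ^ 2) {n : ℕ} (hn : 3 ≤ n)
    (hs : ¬ (n = 3 ∧ q = 2)) : Fac n F q := by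
  have hF' : Fintype.card F = p ^ (2 * f) := by rw [hF, hq, ← pow_mul, mul_comm]
  obtain ⟨p', hp'⟩ := CharP.exists F
  have hp'' : p'.Prime := by
    have := CharP.char_is_prime F p'
    exact this
  have hpp : p' = p := by
    have h1 : p' ∣ Fintype.card F := by
      have : ((Fintype.card F : ℕ) : F) = 0 := Nat.cast_card_eq_zero F
      exact (CharP.cast_eq_zero_iff F p' _).1 this
    rw [hF'] at h1
    exact (Nat.prime_dvd_prime_iff_eq hp'' (Fact.out : p.Prime)).1 (hp''.dvd_of_dvd_pow h1)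
  subst hpp
  exact fac_of_permX (p := p') (hF := hF) hn hs (permX (p := p') hF (by omega))

end Cfsg.Agent.Lib.Helper43.PU
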