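import Cfsg.Agent.Lib.Helper43.PU.NormOne
import Cfsg.Agent.Lib.Helper43.PU.Count
import Cfsg.Agent.Lib.Helper43.PA.FieldCent
import Cfsg.Agent.Lib.Helper43.PA.Coset

set_option autoImplicit false
set_option linter.unusedSectionVars false

/-!
Lang's theorem for `GU_n(q)` and a field automorphism of odd order; the coset `Inndiag · φ`.
-/

namespace Cfsg.Agent.Lib.Helper43.PU

open Matrix Cfsg.Agent.Lib.Helper43.PA Cfsg.Agent.Lib.Helper13 Cfsg.Agent.Lib.Helper5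

variable {F : Type*} [Field F] [Fintype F] {q n : ℕ}

lemma mapGL_invTGL (σ : F ≃+* F) (h : GL (Fin n) F) :
    mapGL σ (invTGL h) = invTGL (mapGL σ h) := by
  apply Units.ext
  rw [mapGL_coe, invTGL_coe, invTGL_coe, ← map_inv, mapGL_coe, transpose_map]

lemma mapGL_tauGL (hF : Fintype.card F = q ^ 2) (σ : F ≃+* F) (h : GL (Fin n) F) :
    mapGL σ (tauGL (barE hF) h) = tauGL (barE hF) (mapGL σ h) := by
  rw [tauGL_apply, tauGL_apply, ← mapGL_mul', barE_comm, mapGL_mul', mapGL_invTGL]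

lemma mem_GU_iff_tau' (hF : Fintype.card F = q ^ 2) (g : GL (Fin n) F) :
    g ∈ Cfsg.GU n F q ↔ tauGL (barE hF) g = g :=
  mem_GU_iff_tau (barE hF) (barE_mul_self hF) (barE_apply hF) g

lemma fixK_iff (σ : F ≃+* F) (x : F) : σ x = x ↔ ∃ y, (fixK σ).subtype y = x := by
  constructor
  · intro h
    exact ⟨⟨x, mem_fixK.2 h⟩, rfl⟩
  · rintro ⟨y, rfl⟩
    exact mem_fixK.1 y.2

section

variable {p f : ℕ} [hp : Fact p.Prime] (hq : q = p ^ f) (hf : 1 ≤ f) (hF : Fintype.card F = q ^ 2)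
  (σ : F ≃+* F) (hodd : Odd (orderOf σ))

include hq hf hF hodd

/-- Lang's theorem for `GU_n`. -/
theorem lang_GU (g : GL (Fin n) F) (hg : g ∈ Cfsg.GU n F q) (hN : nrm σ g (orderOf σ) = 1) :
    ∃ h ∈ Cfsg.GU n F q, g = h * (mapGL σ h)⁻¹ := by
  have hfin : Finite (F ≃+* F) := Finite.of_injective (fun e => (e : F → F)) DFunLike.coe_injective
  obtain ⟨h₀, hh₀⟩ := hilbert90_GL σ g _ rfl (orderOf_pos σ) hN
  have hτg : tauGL (barE hF) g = g := (mem_GU_iff_tau' hF g).1 hg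
  have hσh : mapGL σ h₀ = g⁻¹ * h₀ := by
    rw [hh₀]; group
  set B : GL (Fin n) F := h₀⁻¹ * tauGL (barE hF) h₀ with hB
  have hσB : mapGL σ B = B := by
    rw [hB, map_mul, map_inv, mapGL_tauGL, hσh, map_mul, map_inv, hτg]
    group
  have hτB : (tauGL (barE hF) B)⁻¹ = B := by
    rw [hB, map_mul, map_inv, tauGL_tauGL _ (barE_mul_self hF)]
    group
  have hherm : (B.1ᵀ).map (barE hF) = B.1 := by
    rw [← tauGL_inv_coe, hτB]
  obtain ⟨B₁, hB₁⟩ := (exists_map_eq (fixK σ).subtype σ (fixK_iff σ) B).1 hσB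
  have hB₁' : ∀ i j, ((B₁.1 i j : fixK σ) : F) = B.1 i j := by
    intro i j
    rw [← hB₁]
    rfl
  have hherm₁ : (B₁.1ᵀ).map (bar1 hF σ) = B₁.1 := by
    ext i j
    have := congrFun (congrFun hherm i) j
    simp only [Matrix.map_apply, Matrix.transpose_apply] at this ⊢
    rw [bar1_coe, hB₁', hB₁']
    exact this
  obtain ⟨k₁, hk₁⟩ := herm_decomp (bar1 hF σ) (bar1_ne_one hq hf hF σ hodd) (bar1_mul_self hF σ)
    B₁ hherm₁
  set k : GL (Fin n) F := Matrix.GeneralLinearGroup.map (fixK σ).subtype k₁ with hk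
  have hσk : mapGL σ k = k := (exists_map_eq (fixK σ).subtype σ (fixK_iff σ) k).2 ⟨k₁, rfl⟩
  have hBk : B = k * (tauGL (barE hF) k)⁻¹ := by
    rw [← hB₁]
    apply Units.ext
    rw [Units.val_mul k, tauGL_inv_coe]
    show (B₁.1).map (fixK σ).subtype = (k₁.1).map (fixK σ).subtype *
      (((k₁.1).map (fixK σ).subtype)ᵀ).map (barE hF)
    rw [hk₁, Matrix.map_mul]
    rfl
  refine ⟨h₀ * k, ?_, ?_⟩
  · rw [mem_GU_iff_tau' hF, map_mul]
    have : tauGL (barE hF) h₀ = h₀ * B := by rw [hB]; group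
    rw [this, hBk]
    group
  · rw [map_mul, hσk, hh₀]
    group

end

/-! ### norms in `GU` -/

/-- partial norms in `GU_n`. -/
noncomputable def nrmU (σ : F ≃+* F) (g : ↥(Cfsg.GU n F q)) : ℕ → ↥(Cfsg.GU n F q)
  | 0 => 1
  | k + 1 => g * mapGU σ (nrmU σ g k)

lemma nrmU_coe (σ : F ≃+* F) (g : ↥(Cfsg.GU n F q)) (k : ℕ) : (nrmU σ g k).1 = nrm σ g.1 k := by
  induction k with
  | zero => rfl
  | succ k ih =>
    show g.1 * mapGL σ (nrmU σ g k).1 = _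
    rw [ih, nrm_succ]

lemma pow_cGU_fAU (σ : F ≃+* F) (g : ↥(Cfsg.GU n F q)) (k : ℕ) :
    (cGU g * fAU σ) ^ k = cGU (nrmU σ g k) * fAU (σ ^ k) := by
  induction k with
  | zero => simp [nrmU]
  | succ k ih =>
    rw [pow_succ', ih]
    show _ = cGU (g * mapGU σ (nrmU σ g k)) * _
    rw [map_mul, pow_succ', map_mul, mul_assoc, ← mul_assoc (fAU σ), fAU_mul_cGU]
    simp only [mul_assoc]

lemma conj_fAU (σ : F ≃+* F) (h : ↥(Cfsg.GU n F q)) :
    cGU h * fAU σ * (cGU h)⁻¹ = cGU (h * (mapGU σ h)⁻¹) * fAU σ := by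
  rw [map_mul, map_inv, mul_assoc, mul_assoc, mul_right_inj, eq_inv_mul_iff_mul_eq, ← mul_assoc,
    ← fAU_mul_cGU, mul_inv_cancel_right]

lemma pow_succ_of_norm (hF : Fintype.card F = q ^ 2) {v : Fˣ} (hv : v * uM (barE hF) v = 1) :
    v ^ (q + 1) = 1 := by
  rw [pow_succ', ← hv]
  congr 1

lemma norm_of_pow_succ (hF : Fintype.card F = q ^ 2) {v : Fˣ} (hv : v ^ (q + 1) = 1) :
    v * uM (barE hF) v = 1 := by
  rw [← hv, pow_succ']
  congr 1

/-- a scalar element of `GU_n`. -/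
lemma exists_scGL_of_scalar (hF : Fintype.card F = q ^ 2) (hn : 3 ≤ n) {g : ↥(Cfsg.GU n F q)}
    (h : cGU g = 1) : ∃ u : Fˣ, u * uM (barE hF) u = 1 ∧ g.1 = scGL u := by
  have hg : g ∈ (cGU : ↥(Cfsg.GU n F q) →* _).ker := h
  obtain ⟨a, ha⟩ := (cGU_eq_one_iff hF hn g).mp h
  obtain ⟨e, f, he0, he, hf, hef, hfe⟩ := exists_hyp_pair (n := n) hF hn
  have hN : a ^ (q + 1) = 1 := by
    have := gu_preserves' g e f
    rw [ha, ha, hermForm_smul_left, hermForm_smul_right, hef] at this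
    rw [pow_succ']
    linear_combination this
  have ha0 : a ≠ 0 := by
    rintro rfl
    rw [zero_pow (by omega)] at hN
    exact zero_ne_one hN
  refine ⟨Units.mk0 a ha0, norm_of_pow_succ hF (Units.ext (by simpa using hN)), ?_⟩
  apply Units.ext
  apply mat_ext_mulVec
  intro x
  rw [ha, scGL_mulVec]
  rfl

/-- scalars of norm one, in `GU_n`. -/
noncomputable def scGU (hF : Fintype.card F = q ^ 2) (v : Fˣ) (hv : v * uM (barE hF) v = 1) :
    ↥(Cfsg.GU n F q) := ⟨scGL v, scGL_mem_GU (pow_succ_of_norm hF hv)⟩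

lemma cGU_scGU (hF : Fintype.card F = q ^ 2) (v : Fˣ) (hv : v * uM (barE hF) v = 1) :
    cGU (scGU (n := n) hF v hv) = 1 :=
  cGU_eq_one_of_scalar (a := (v : F)) (fun y => scGL_mulVec v y)

section

variable {p f : ℕ} [hp : Fact p.Prime] (hq : q = p ^ f) (hf : 1 ≤ f) (hF : Fintype.card F = q ^ 2)
  (σ : F ≃+* F) (hodd : Odd (orderOf σ))

include hq hf hF hodd

/-- the field coset. -/
theorem field_coset_U (hn : 3 ≤ n) (g : ↥(Cfsg.GU n F q))
    (h : (cGU g * fAU σ) ^ (orderOf σ) = 1) :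
    ∃ h : ↥(Cfsg.GU n F q), cGU g * fAU σ = cGU h * fAU σ * (cGU h)⁻¹ := by
  have hσ : σ ^ (orderOf σ) = 1 := pow_orderOf_eq_one σ
  rw [pow_cGU_fAU, hσ, map_one, mul_one] at h
  obtain ⟨u, hu1, hu⟩ := exists_scGL_of_scalar hF hn h
  rw [nrmU_coe] at hu
  have h2 : uM σ u = u := by
    apply scGL_injective (n := n) (by omega)
    rw [← mapGL_scGL]
    have e1 := nrm_succ σ g.1 (orderOf σ)
    rw [nrm_succ', hσ, mapGL_one', hu, scGL_comm] at e1
    exact (mul_left_cancel e1).symm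
  obtain ⟨v, hv1, hv⟩ := norm_U1 hq hf hF σ hodd u⁻¹ (by rw [map_inv, h2])
    (by rw [map_inv, ← mul_inv, hu1, inv_one])
  obtain ⟨h, hh, e⟩ := lang_GU hq hf hF σ hodd (scGL v * g.1)
    ((Cfsg.GU n F q).mul_mem (scGL_mem_GU (pow_succ_of_norm hF hv1)) g.2) (by
      rw [nrm_scGL_mul, hv, hu, ← map_mul, inv_mul_cancel, map_one])
  refine ⟨⟨h, hh⟩, ?_⟩
  rw [conj_fAU]
  have e2 : (⟨h, hh⟩ : ↥(Cfsg.GU n F q)) * (mapGU σ ⟨h, hh⟩)⁻¹ = scGU hF v hv1 * g :=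
    Subtype.ext e.symm
  rw [e2, map_mul, cGU_scGU, one_mul]

end

end Cfsg.Agent.Lib.Helper43.PU
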