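import Cfsg.Agent.Lib.Helper43.PU.Bar

set_option autoImplicit false
set_option linter.unusedSectionVars false

/-!
Cohomology of the norm-one group `U₁ = {u : u u^q = 1}` under an automorphism of odd order.
-/

namespace Cfsg.Agent.Lib.Helper43.PU

open Matrix Cfsg.Agent.Lib.Helper43.PA Cfsg.Agent.Lib.Helper13

lemma cg1 {A : Type*} [CommGroup A] {W W1 B B1 : A} (h : B * B1⁻¹ = W * W1⁻¹) :
    B1 * W1⁻¹ = B * W⁻¹ := by
  have hB : B = W * W1⁻¹ * B1 := by rw [← h, inv_mul_cancel_right]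
  rw [hB]
  apply Additive.ofMul.injective
  simp only [ofMul_mul, ofMul_inv]
  abel

lemma cg2 {A : Type*} [CommGroup A] {W B : A} : (B * W⁻¹) * (W * B⁻¹) = 1 := by
  apply Additive.ofMul.injective
  simp only [ofMul_mul, ofMul_inv, ofMul_one]
  abel

lemma cg3 {A : Type*} [CommGroup A] {W B s S : A} (h : B * W⁻¹ = s * S⁻¹) : B * S = W * s := by
  have hB : B = s * S⁻¹ * W := by rw [← h, inv_mul_cancel_right]
  rw [hB]
  apply Additive.ofMul.injective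
  simp only [ofMul_mul, ofMul_inv]
  abel

lemma cg4 {A : Type*} [CommGroup A] {W W1 s t T1 Tb Tb1 : A} (h1 : t * Tb = W * s)
    (h2 : T1 * Tb1 = W1 * s) : W * W1⁻¹ * ((t * T1⁻¹)⁻¹ * (Tb * Tb1⁻¹)⁻¹) = 1 := by
  have ht : t = W * s * Tb⁻¹ := by rw [← h1, mul_inv_cancel_right]
  have hT : T1 = W1 * s * Tb1⁻¹ := by rw [← h2, mul_inv_cancel_right]
  rw [ht, hT]
  apply Additive.ofMul.injective
  simp only [ofMul_mul, ofMul_inv, ofMul_one]
  abel

variable {F : Type*} [Field F]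

/-- a fixed unit, as a unit of the fixed field. -/
noncomputable def toK1 (σ : F ≃+* F) (u : Fˣ) (hu : uM σ u = u) : (fixK σ)ˣ :=
  ⟨⟨u.1, mem_fixK.2 (congrArg Units.val hu)⟩,
    ⟨(u⁻¹ : Fˣ).1, mem_fixK.2 (congrArg Units.val (show uM σ u⁻¹ = u⁻¹ by rw [map_inv, hu]))⟩,
    Subtype.ext (by simp), Subtype.ext (by simp)⟩

/-- units of the fixed field, as units. -/
noncomputable def ofK1 (σ : F ≃+* F) : (fixK σ)ˣ →* Fˣ := Units.map (fixK σ).subtype.toMonoidHom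

lemma ofK1_coe (σ : F ≃+* F) (s : (fixK σ)ˣ) : ((ofK1 σ s : Fˣ) : F) = ((s : fixK σ) : F) := rfl

lemma ofK1_toK1 (σ : F ≃+* F) (u : Fˣ) (hu : uM σ u = u) : ofK1 σ (toK1 σ u hu) = u :=
  Units.ext rfl

lemma uM_ofK1 (σ : F ≃+* F) (s : (fixK σ)ˣ) : uM σ (ofK1 σ s) = ofK1 σ s :=
  Units.ext (mem_fixK.1 s.1.2)

lemma ofK1_injective (σ : F ≃+* F) : Function.Injective (ofK1 σ) := by
  intro a b h
  apply Units.ext
  apply Subtype.ext
  exact congrArg Units.val h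

lemma nU_two (τ : F ≃+* F) (u : Fˣ) : nU τ u 2 = u * uM τ u := by
  simp [nU_succ, nU_zero]

lemma nU_comm {σ τ : F ≃+* F} (h : σ * τ = τ * σ) (y : Fˣ) (k : ℕ) :
    nU σ (uM τ y) k = uM τ (nU σ y k) := by
  induction k with
  | zero => simp [nU_zero]
  | succ k ih =>
    rw [nU_succ, nU_succ, ih, map_mul]
    congr 1
    apply Units.ext
    exact DFunLike.congr_fun h _

lemma nU_inv (σ : F ≃+* F) (y : Fˣ) (k : ℕ) : nU σ y⁻¹ k = (nU σ y k)⁻¹ :=
  map_inv (nHom σ k) y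

variable [Fintype F] {q : ℕ}

lemma uM_bar1 (hF : Fintype.card F = q ^ 2) (σ : F ≃+* F) (s : (fixK σ)ˣ) :
    ofK1 σ (uM (bar1 hF σ) s) = uM (barE hF) (ofK1 σ s) := Units.ext rfl

lemma uM_comm (hF : Fintype.card F = q ^ 2) (σ : F ≃+* F) (u : Fˣ) :
    uM σ (uM (barE hF) u) = uM (barE hF) (uM σ u) :=
  Units.ext (DFunLike.congr_fun (barE_comm hF σ) _)

lemma uM_barE_barE (hF : Fintype.card F = q ^ 2) (u : Fˣ) :
    uM (barE hF) (uM (barE hF) u) = u :=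
  Units.ext (pow_q_pow_q hF _)

section

variable {p f : ℕ} [hp : Fact p.Prime] (hq : q = p ^ f) (hf : 1 ≤ f) (hF : Fintype.card F = q ^ 2)
  (σ : F ≃+* F) (hodd : Odd (orderOf σ))

include hq hf hodd

lemma orderOf_bar1 : orderOf (bar1 hF σ) = 2 :=
  orderOf_eq_prime (by rw [sq]; exact bar1_mul_self hF σ) (bar1_ne_one hq hf hF σ hodd)

/-- Hilbert 90 for the involution on the fixed field. -/
lemma h90_K1 (c : Fˣ) (hc : uM σ c = c) (hc1 : c * uM (barE hF) c = 1) :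
    ∃ s : Fˣ, uM σ s = s ∧ c = s * (uM (barE hF) s)⁻¹ := by
  obtain ⟨s, hs⟩ := hilbert90_units (bar1 hF σ) (toK1 σ c hc) 2 (orderOf_bar1 hq hf hF σ hodd)
    (by norm_num) (by
      apply ofK1_injective
      rw [nU_two, map_mul, uM_bar1, ofK1_toK1, hc1, map_one])
  refine ⟨ofK1 σ s, uM_ofK1 σ s, ?_⟩
  have := congrArg (ofK1 σ) hs
  rwa [ofK1_toK1, map_mul, map_inv, uM_bar1] at this

/-- the norm of the involution is onto, on the fixed field. -/
lemma norm_K1 (m : Fˣ) (hm : uM σ m = m) (hm1 : uM (barE hF) m = m) :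
    ∃ s : Fˣ, uM σ s = s ∧ s * uM (barE hF) s = m := by
  obtain ⟨s, hs⟩ := exists_nU_eq (bar1 hF σ) 2 (orderOf_bar1 hq hf hF σ hodd) (by norm_num)
    (toK1 σ m hm) (by
      apply ofK1_injective
      rw [uM_bar1, ofK1_toK1, hm1])
  refine ⟨ofK1 σ s, uM_ofK1 σ s, ?_⟩
  have := congrArg (ofK1 σ) hs
  rwa [ofK1_toK1, nU_two, map_mul, uM_bar1] at this

/-- Hilbert 90 for the norm-one group. -/
theorem h90_U1 (u : Fˣ) (hu : u * uM (barE hF) u = 1) (hN : nU σ u (orderOf σ) = 1) :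
    ∃ v : Fˣ, v * uM (barE hF) v = 1 ∧ u = v * (uM σ v)⁻¹ := by
  have hfin : Finite (F ≃+* F) := Finite.of_injective (fun e => (e : F → F)) DFunLike.coe_injective
  obtain ⟨v₀, hv₀⟩ := hilbert90_units σ u _ rfl (orderOf_pos σ) hN
  have hm : uM σ (v₀ * uM (barE hF) v₀) = v₀ * uM (barE hF) v₀ := by
    rw [hv₀, map_mul, map_inv, ← uM_comm, mul_mul_mul_comm, ← mul_inv, ← map_mul,
      mul_inv_eq_one] at hu
    exact hu.symm
  obtain ⟨s, hs, hs1⟩ := norm_K1 hq hf hF σ hodd (v₀ * uM (barE hF) v₀) hm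
    (by rw [map_mul, uM_barE_barE, mul_comm])
  refine ⟨v₀ * s⁻¹, ?_, ?_⟩
  · rw [map_mul, map_inv, mul_mul_mul_comm, ← mul_inv, hs1, mul_inv_cancel]
  · rw [map_mul, map_inv, hs, mul_inv, inv_inv, mul_mul_mul_comm, inv_mul_cancel, mul_one, hv₀]

/-- the `σ`-norm maps the norm-one group onto its fixed points. -/
theorem norm_U1 (a : Fˣ) (ha : uM σ a = a) (ha1 : a * uM (barE hF) a = 1) :
    ∃ v : Fˣ, v * uM (barE hF) v = 1 ∧ nU σ v (orderOf σ) = a := by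
  have hfin : Finite (F ≃+* F) := Finite.of_injective (fun e => (e : F → F)) DFunLike.coe_injective
  have hpos := orderOf_pos σ
  obtain ⟨y, hy⟩ := exists_nU_eq σ _ rfl hpos a ha
  obtain ⟨w, hw⟩ := hilbert90_units σ (y * uM (barE hF) y) _ rfl hpos (by
    rw [nU_mul, nU_comm (barE_comm hF σ), hy, ha1])
  -- `c = b w / w`
  have hz : uM (barE hF) (y * uM (barE hF) y) = y * uM (barE hF) y := by
    rw [map_mul, uM_barE_barE, mul_comm]
  have hc : uM σ (uM (barE hF) w * w⁻¹) = uM (barE hF) w * w⁻¹ := by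
    rw [hw, map_mul, map_inv, ← uM_comm] at hz
    rw [map_mul, map_inv]
    exact cg1 hz
  obtain ⟨s, hs, hs1⟩ := h90_K1 hq hf hF σ hodd (uM (barE hF) w * w⁻¹) hc (by
    rw [map_mul, map_inv, uM_barE_barE]
    exact cg2)
  obtain ⟨t, ht⟩ := exists_nU_eq (barE hF) 2 (orderOf_barE hF) (by norm_num) (w * s) (by
    rw [map_mul]
    exact cg3 hs1)
  rw [nU_two] at ht
  refine ⟨y * (langU σ t)⁻¹, ?_, ?_⟩
  · have ht2 := congrArg (uM σ) ht
    rw [map_mul, map_mul, hs] at ht2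
    rw [map_mul, map_inv, mul_mul_mul_comm, hw, langU_apply, map_mul, map_inv, ← uM_comm]
    exact cg4 ht ht2
  · rw [nU_mul, nU_inv, nU_langU σ t _ (pow_orderOf_eq_one σ), hy, inv_one, mul_one]

end

end Cfsg.Agent.Lib.Helper43.PU
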