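import Cfsg.Agent.Lib.Helper43.PU.Tv

set_option autoImplicit false
set_option linter.unusedSectionVars false

/-!
The unipotent radical `Q_u` of the stabiliser of an isotropic point in `SU_n(q)`.
-/

namespace Cfsg.Agent.Lib.Helper43.PU

open Matrix Module Cfsg.Agent.Lib.Helper43.PA Cfsg.Agent.Lib.Helper5 Cfsg.Agent.Lib.Helper13
  Cfsg.Agent.Lib.Helper94 Cfsg.Agent.Lib.Helper94.U Cfsg.Agent.Lib.Helper45.SUGen

variable {F : Type*} [Field F] [Fintype F] {q n : ℕ}

local notation "H" => Cfsg.hermForm n F q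
local notation "V" => (Fin n → F)
local notation "G" => Cfsg.SU n F q

lemma eSU_conj (hF : Fintype.card F = q ^ 2) (g : G) (v w : V) (a : F) (hv : H v v = 0)
    (hwv : H w v = 0) (ha : a + a ^ q + H w w = 0) :
    g * eSU hF v w a hv hwv ha * g⁻¹ = eSU hF (g.1.1 *ᵥ v) (g.1.1 *ᵥ w) a
      (by rw [SU_preserves, hv]) (by rw [SU_preserves, hwv]) (by rw [SU_preserves, ha]) := by
  apply SU_ext_mulVec
  intro x
  rw [SU_mul_mulVec, SU_mul_mulVec, eSU_mulVec, eSU_mulVec]
  simp only [mulVec_add, mulVec_sub, mulVec_smul, SU_mulVec_inv_mulVec]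
  have h1 : H ((g⁻¹).1.1 *ᵥ x) v = H x (g.1.1 *ᵥ v) := by
    rw [← SU_preserves g, SU_mulVec_inv_mulVec]
  have h2 : H ((g⁻¹).1.1 *ᵥ x) w = H x (g.1.1 *ᵥ w) := by
    rw [← SU_preserves g, SU_mulVec_inv_mulVec]
  rw [h1, h2]

lemma eSU_congr' (hF : Fintype.card F = q ^ 2) {v v' w w' : V} {a a' : F} (hvv : v = v')
    (hw : w = w') (haa : a = a') (hv : H v v = 0) (hwv : H w v = 0) (ha : a + a ^ q + H w w = 0) :
    eSU hF v w a hv hwv ha = eSU hF v' w' a' (hvv ▸ hv) (by subst hvv hw; exact hwv)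
      (by subst hw haa; exact ha) := by
  subst hvv hw haa; rfl

lemma eSU_zero (hF : Fintype.card F = q ^ 2) (v : V) (hv : H v v = 0) (h1 : H (0 : V) v = 0)
    (h2 : (0 : F) + 0 ^ q + H (0 : V) 0 = 0) : eSU hF v 0 0 hv h1 h2 = 1 := by
  apply SU_ext_mulVec
  intro x
  rw [eSU_mulVec, SU_one_mulVec, hermForm_zero_right hF]; simp

/-- the group `Q_u`. -/
def qGroup (hF : Fintype.card F = q ^ 2) (u : V) (hu : H u u = 0) : Subgroup G where
  carrier := {g | ∃ w a, ∃ (hwu : H w u = 0) (ha : a + a ^ q + H w w = 0), g = eSU hF u w a hu hwu ha}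
  mul_mem' := by
    rintro _ _ ⟨w, a, hw, ha, rfl⟩ ⟨w', a', hw', ha', rfl⟩
    exact ⟨_, _, _, _, eSU_mul hF u w w' a a' hu hw hw' ha ha'⟩
  one_mem' := ⟨0, 0, hermForm_zero_left u, by
    rw [hermForm_zero_left, zero_skew hF, add_zero], (eSU_zero hF u hu _ _).symm⟩
  inv_mem' := by
    rintro _ ⟨w, a, hw, ha, rfl⟩
    have hw' : H (-w) u = 0 := by rw [hermForm_neg_left, hw, neg_zero]
    have ha' : a ^ q + (a ^ q) ^ q + H (-w) (-w) = 0 := by
      rw [pow_q_pow_q hF, hermForm_neg_left, hermForm_neg_right hF]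
      linear_combination ha
    refine ⟨-w, a ^ q, hw', ha', ?_⟩
    apply inv_eq_of_mul_eq_one_right
    rw [eSU_mul hF u w (-w) a (a ^ q) hu hw hw' ha ha']
    rw [eSU_congr' hF rfl (add_neg_cancel w)
      (show a + a ^ q - H (-w) w = 0 by rw [hermForm_neg_left]; linear_combination ha)]
    exact eSU_zero hF u hu _ _

lemma eSU_mem_qGroup (hF : Fintype.card F = q ^ 2) (u w : V) (a : F) (hu : H u u = 0)
    (hwu : H w u = 0) (ha : a + a ^ q + H w w = 0) : eSU hF u w a hu hwu ha ∈ qGroup hF u hu :=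
  ⟨w, a, hwu, ha, rfl⟩

lemma utGroup_le_qGroup (hF : Fintype.card F = q ^ 2) (u : V) (hu : H u u = 0) :
    utGroup hF u hu ≤ qGroup hF u hu := by
  rintro _ ⟨c, hc, rfl⟩
  exact eSU_mem_qGroup hF u 0 c hu _ _

lemma tSU_pow (hF : Fintype.card F = q ^ 2) (u : V) (c : F) (hu : H u u = 0) (hc : c + c ^ q = 0)
    (k : ℕ) : ∃ hk : (k : F) * c + ((k : F) * c) ^ q = 0,
      (tSU hF u c hu hc) ^ k = tSU hF u ((k : F) * c) hu hk := by
  induction k with
  | zero =>
    have h0 : ((0 : ℕ) : F) * c = 0 := by simp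
    refine ⟨by rw [h0]; exact zero_skew hF, ?_⟩
    rw [pow_zero, tSU_congr hF rfl h0, tSU_zero hF u hu (zero_skew hF)]
  | succ k ih =>
    obtain ⟨hk, ih⟩ := ih
    have h1 : (k : F) * c + c = ((k + 1 : ℕ) : F) * c := by push_cast; ring
    refine ⟨by rw [← h1, add_pow_q hF]; linear_combination hk + hc, ?_⟩
    rw [pow_succ, ih, tSU_mul, tSU_congr hF rfl h1]

lemma eSU_pow (hF : Fintype.card F = q ^ 2) (u w : V) (a : F) (hu : H u u = 0)
    (hwu : H w u = 0) (ha : a + a ^ q + H w w = 0) (k : ℕ) :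
    ∃ (b : F) (h1 : H ((k : F) • w) u = 0) (h2 : b + b ^ q + H ((k : F) • w) ((k : F) • w) = 0),
      (eSU hF u w a hu hwu ha) ^ k = eSU hF u ((k : F) • w) b hu h1 h2 := by
  induction k with
  | zero =>
    have h0 : ((0 : ℕ) : F) • w = 0 := by simp
    refine ⟨0, by rw [h0, hermForm_zero_left], by
      rw [h0, hermForm_zero_left, zero_skew hF, add_zero], ?_⟩
    rw [pow_zero, eSU_congr' hF rfl h0 rfl]
    exact (eSU_zero hF u hu _ _).symm
  | succ k ih =>
    obtain ⟨b, h1, h2, ih⟩ := ih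
    have h3 : (k : F) • w + w = ((k + 1 : ℕ) : F) • w := by push_cast; module
    have e := eSU_mul hF u ((k : F) • w) w b a hu h1 hwu h2 ha
    rw [eSU_congr' hF rfl h3 rfl] at e
    exact ⟨_, _, _, by rw [pow_succ, ih, e]⟩

lemma isPGroup_qGroup (hF : Fintype.card F = q ^ 2) {p : ℕ} [CharP F p] (u : V) (hu : H u u = 0) :
    IsPGroup p (qGroup hF u hu) := by
  rintro ⟨_, w, a, hw, ha, rfl⟩
  refine ⟨2, Subtype.ext ?_⟩
  show (eSU hF u w a hu hw ha) ^ (p ^ 2) = 1
  obtain ⟨b, h1, h2, e⟩ := eSU_pow hF u w a hu hw ha p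
  have h0 : ((p : ℕ) : F) • w = 0 := by rw [CharP.cast_eq_zero, zero_smul]
  rw [eSU_congr' hF rfl h0 rfl] at e
  have hb : b + b ^ q = 0 := by
    rw [h0, hermForm_zero_left, add_zero] at h2
    exact h2
  have e2 : (eSU hF u w a hu hw ha) ^ p = tSU hF u b hu hb := e
  obtain ⟨hk, e3⟩ := tSU_pow hF u b hu hb p
  rw [pow_two, pow_mul, e2, e3,
    tSU_congr hF rfl (show ((p : ℕ) : F) * b = 0 by rw [CharP.cast_eq_zero, zero_mul]),
    tSU_zero hF u hu (zero_skew hF)]

/-- the vectors fixed by `Q_u` are the multiples of `u`. -/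
lemma fixed_qGroup (hF : Fintype.card F = q ^ 2) {u : V} (hu0 : u ≠ 0) (hu : H u u = 0) {x : V}
    (hx : ∀ g ∈ qGroup hF u hu, g.1.1 *ᵥ x = x) : ∃ c : F, x = c • u := by
  obtain ⟨c, hc0, hc⟩ := exists_skew_q hF
  have h1 : H x u = 0 := by
    have := hx _ (utGroup_le_qGroup hF u hu ⟨c, hc, rfl⟩)
    rw [tSU_mulVec] at this
    have h2 : (c * H x u) • u = 0 := by simpa using this
    rcases smul_eq_zero.mp h2 with h | h
    · exact (mul_eq_zero.mp h).resolve_left hc0
    · exact absurd h hu0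
  apply herm_eq_smul_of_perp_le hF
  intro w hw
  obtain ⟨a, ha⟩ := exists_tr hF (-H w w) (by rw [neg_pow_q hF, hermForm_self_pow hF])
  have := hx _ (eSU_mem_qGroup hF u w a hu hw (by rw [ha]; ring))
  rw [eSU_mulVec, h1] at this
  have h2 : H x w • u = 0 := by
    have h3 : x - H x w • u = x := by simpa using this
    exact sub_eq_self.mp h3
  rcases smul_eq_zero.mp h2 with h | h
  · exact hermForm_eq_zero_comm hF h
  · exact absurd h hu0

/-- an element fixing `u` and commuting with `Q_u` is a transvection with centre `u`. -/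
lemma mem_utGroup_of_commute (hF : Fintype.card F = q ^ 2) {u : V} (hu0 : u ≠ 0) (hu : H u u = 0)
    {z : G} (hzu : z.1.1 *ᵥ u = u) (hz : ∀ g ∈ qGroup hF u hu, z * g = g * z) :
    z ∈ utGroup hF u hu := by
  obtain ⟨f, hf, huf, hfu⟩ := exists_partner hF hu0 hu
  obtain ⟨t, ht⟩ := (hermH hF n).exists_not_fixed
  rw [frobQ_apply] at ht
  -- z w = w + μ u with μ fixed
  have step1 : ∀ w : V, H w u = 0 → ∃ μ : F, μ ^ q = μ ∧ z.1.1 *ᵥ w = w + μ • u := by
    intro w hw
    obtain ⟨a, ha⟩ := exists_tr hF (-H w w) (by rw [neg_pow_q hF, hermForm_self_pow hF])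
    have ha' : a + a ^ q + H w w = 0 := by rw [ha]; ring
    have h1 := hz _ (eSU_mem_qGroup hF u w a hu hw ha')
    have h2 : z * eSU hF u w a hu hw ha' * z⁻¹ = eSU hF u w a hu hw ha' := by
      rw [h1, mul_inv_cancel_right]
    rw [eSU_conj] at h2
    have h3 := congrArg (fun A : G => A.1.1 *ᵥ f) h2
    simp only [eSU_mulVec, hzu, hfu] at h3
    have h4 : z.1.1 *ᵥ w - w = (H f (z.1.1 *ᵥ w) - H f w) • u := by
      rw [sub_smul]
      have h5 : f + (1 : F) • z.1.1 *ᵥ w - H f (z.1.1 *ᵥ w) • u =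
          f + (1 : F) • w - H f w • u := add_right_cancel h3
      rw [one_smul, one_smul] at h5
      have h6 : z.1.1 *ᵥ w - H f (z.1.1 *ᵥ w) • u = w - H f w • u := by
        have := congrArg (fun y => y - f) h5
        simpa [add_sub_assoc, add_sub_cancel_left] using this
      rw [sub_eq_sub_iff_add_eq_add] at h6 ⊢
      rw [h6, add_comm]
    set μ := H f (z.1.1 *ᵥ w) - H f w with hμ
    refine ⟨μ, ?_, by rw [← h4]; abel⟩
    have h5 : μ = H f (z.1.1 *ᵥ w - w) := by rw [hermForm_sub_right hF]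
    rw [h4, hermForm_smul_right, hfu, mul_one] at h5
    exact h5.symm
  have step2 : ∀ w : V, H w u = 0 → z.1.1 *ᵥ w = w := by
    intro w hw
    obtain ⟨μ, hμ, h1⟩ := step1 w hw
    obtain ⟨μ', hμ', h2⟩ := step1 (t • w) (by rw [hermForm_smul_left, hw, mul_zero])
    rw [mulVec_smul, h1, smul_add, smul_smul] at h2
    have h3 : (t * μ - μ') • u = 0 := by
      rw [sub_smul, sub_eq_zero]
      exact add_left_cancel h2
    have h4 : μ' = t * μ := by
      rcases smul_eq_zero.mp h3 with h | h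
      · exact (sub_eq_zero.mp h).symm
      · exact absurd h hu0
    rw [h4, mul_pow, hμ] at hμ'
    have h5 : μ = 0 := by
      by_contra h0
      exact ht (mul_right_cancel₀ h0 hμ')
    rw [h1, h5, zero_smul, add_zero]
  obtain ⟨c, hc⟩ : ∃ c : F, z.1.1 *ᵥ f - f = c • u := by
    apply herm_eq_smul_of_perp_le hF
    intro w hw
    apply hermForm_eq_zero_comm hF
    rw [hermForm_sub_left]
    have := SU_preserves z f w
    rw [step2 w hw] at this
    rw [this, sub_self]
  have hzf : z.1.1 *ᵥ f = f + c • u := by rw [← hc]; abel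
  have hcs : c + c ^ q = 0 := by
    have := SU_preserves z f f
    rw [hzf] at this
    simp only [hermForm_add_left, hermForm_add_right hF, hermForm_smul_left, hermForm_smul_right,
      hf, hu, huf, hfu] at this
    linear_combination this
  refine ⟨c, hcs, ?_⟩
  apply SU_ext_mulVec
  intro x
  have hx : x = H x u • f + (x - H x u • f) := by abel
  have h1 : H (x - H x u • f) u = 0 := by
    rw [hermForm_sub_left, hermForm_smul_left, hfu]; ring
  rw [tSU_mulVec]
  conv_lhs => rw [hx]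
  rw [mulVec_add, mulVec_smul, hzf, step2 _ h1]
  module

end Cfsg.Agent.Lib.Helper43.PU
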