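import Cfsg.Agent.Lib.Helper43.PU.Tv

set_option autoImplicit false
set_option linter.unusedSectionVars false

/-!
Rigidity: `cGU g * fAU σ = 1` forces `σ = 1` and `g` scalar.
-/

namespace Cfsg.Agent.Lib.Helper43.PU

open Matrix Module Cfsg.Agent.Lib.Helper43.PA Cfsg.Agent.Lib.Helper5 Cfsg.Agent.Lib.Helper13
  Cfsg.Agent.Lib.Helper94 Cfsg.Agent.Lib.Helper94.U Cfsg.Agent.Lib.Helper45.SUGen

variable {F : Type*} [Field F] [Fintype F] {q n : ℕ}

local notation "H" => Cfsg.hermForm n F q
local notation "V" => (Fin n → F)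
local notation "G" => Cfsg.SU n F q

/-- the semilinear map `x ↦ g σ(x)`. -/
def semi (g : ↥(Cfsg.GU n F q)) (σ : F ≃+* F) (x : V) : V := g.1.1 *ᵥ (⇑σ ∘ x)

lemma semi_add (g : ↥(Cfsg.GU n F q)) (σ : F ≃+* F) (x y : V) :
    semi g σ (x + y) = semi g σ x + semi g σ y := by
  unfold semi
  rw [← mulVec_add]
  congr 1
  funext i
  simp

lemma semi_smul (g : ↥(Cfsg.GU n F q)) (σ : F ≃+* F) (t : F) (x : V) :
    semi g σ (t • x) = σ t • semi g σ x := by
  unfold semi
  rw [← mulVec_smul]
  congr 1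
  funext i
  simp

lemma semi_herm (g : ↥(Cfsg.GU n F q)) (σ : F ≃+* F) (x y : V) :
    H (semi g σ x) (semi g σ y) = σ (H x y) := by
  unfold semi
  rw [gu_preserves', hermForm_comp]

lemma cGU_fAU_tSU (hF : Fintype.card F = q ^ 2) (g : ↥(Cfsg.GU n F q)) (σ : F ≃+* F) (v : V) (c : F)
    (hv : H v v = 0) (hc : c + c ^ q = 0) :
    (cGU g * fAU σ : MulAut (Cfsg.PSU n F q)) (QuotientGroup.mk (tSU hF v c hv hc)) =
      QuotientGroup.mk (tSU hF (semi g σ v) (σ c) (by rw [semi_herm, hv, map_zero])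
        (skew_map σ hc)) := by
  rw [MulAut.mul_apply, fAU_mk', cGU_mk', fieldSU_tSU, conjSU_tSU]
  rfl

/-- every isotropic vector is an eigenvector. -/
lemma semi_eigen (hF : Fintype.card F = q ^ 2) (hn : 3 ≤ n) {g : ↥(Cfsg.GU n F q)} {σ : F ≃+* F}
    (h : cGU g * fAU σ = 1) {v : V} (hv0 : v ≠ 0) (hv : H v v = 0) :
    ∃ l : F, semi g σ v = l • v := by
  obtain ⟨c, hc0, hc⟩ := exists_skew_q hF
  have h1 := cGU_fAU_tSU hF g σ v c hv hc
  rw [h] at h1
  have h2 := tSU_eq_of_mk_eq hF hn hv _ hc _ h1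
  obtain ⟨a, ha0, ha⟩ := par_of_tSU_eq hF hv0 hc0 hv _ hc _ h2
  refine ⟨a⁻¹, ?_⟩
  conv_rhs => rw [ha]
  rw [smul_smul, inv_mul_cancel₀ ha0, one_smul]

lemma semi_pair (hF : Fintype.card F = q ^ 2) (hn : 3 ≤ n) {g : ↥(Cfsg.GU n F q)} {σ : F ≃+* F}
    (h : cGU g * fAU σ = 1) {e f : V} (he : H e e = 0) (hf : H f f = 0) (hef : H e f = 1)
    (hfe : H f e = 1) {le lf : F} (hle : semi g σ e = le • e) (hlf : semi g σ f = lf • f) (t : F) :
    σ t * lf = le * t := by
  obtain ⟨w, hwe, hwf, hww⟩ := exists_norm_perp_pair hF hn he hef (-(t + t ^ q))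
    (by rw [neg_pow_q hF, add_pow_q hF, pow_q_pow_q hF]; ring)
  have hew : H e w = 0 := hermForm_eq_zero_comm hF hwe
  have hfw : H f w = 0 := hermForm_eq_zero_comm hF hwf
  have hlf0 : lf ≠ 0 := by
    rintro rfl
    have := semi_herm g σ e f
    rw [hlf, zero_smul, hermForm_zero_right hF, hef, map_one] at this
    exact zero_ne_one this
  have hle0 : le ≠ 0 := by
    rintro rfl
    have := semi_herm g σ e f
    rw [hle, zero_smul, hermForm_zero_left, hef, map_one] at this
    exact zero_ne_one this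
  have hz : H (e + w + t • f) (e + w + t • f) = 0 := by
    simp only [hermForm_add_left, hermForm_add_right hF, hermForm_smul_left, hermForm_smul_right,
      he, hf, hef, hfe, hwe, hwf, hew, hfw, hww]
    ring
  have hzf : H (e + w + t • f) f = 1 := by
    simp only [hermForm_add_left, hermForm_smul_left, hf, hef, hwf]; ring
  have hze : H (e + w + t • f) e = t := by
    simp only [hermForm_add_left, hermForm_smul_left, he, hfe, hwe]; ring
  have hz0 : e + w + t • f ≠ 0 := by
    intro h0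
    rw [h0, hermForm_zero_left] at hzf
    exact zero_ne_one hzf
  obtain ⟨l, hl⟩ := semi_eigen hF hn h hz0 hz
  have hWf : H (semi g σ w) f = 0 := by
    have := semi_herm g σ w f
    rw [hlf, hermForm_smul_right, hwf, map_zero] at this
    exact (mul_eq_zero.mp this).resolve_left (pow_ne_zero _ hlf0)
  have hWe : H (semi g σ w) e = 0 := by
    have := semi_herm g σ w e
    rw [hle, hermForm_smul_right, hwe, map_zero] at this
    exact (mul_eq_zero.mp this).resolve_left (pow_ne_zero _ hle0)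
  rw [semi_add, semi_add, semi_smul, hle, hlf] at hl
  have h1 := congrArg (fun y => H y f) hl
  have h2 := congrArg (fun y => H y e) hl
  simp only [hermForm_add_left, hermForm_smul_left, hf, hef, hWf, he, hfe, hWe, hwf, hwe] at h1 h2
  have h3 : le = l := by linear_combination h1
  rw [h3]
  linear_combination h2

theorem rigid (hF : Fintype.card F = q ^ 2) (hn : 3 ≤ n) {g : ↥(Cfsg.GU n F q)} {σ : F ≃+* F}
    (h : cGU g * fAU σ = 1) : σ = 1 ∧ ∃ a : F, ∀ x : V, g.1.1 *ᵥ x = a • x := by
  obtain ⟨e, f, he0, he, hf, hef, hfe⟩ := exists_hyp_pair (n := n) hF hn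
  have hf0 : f ≠ 0 := by
    rintro rfl
    rw [hermForm_zero_left] at hfe
    exact zero_ne_one hfe
  obtain ⟨le, hle⟩ := semi_eigen hF hn h he0 he
  obtain ⟨lf, hlf⟩ := semi_eigen hF hn h hf0 hf
  have key := semi_pair hF hn h he hf hef hfe hle hlf
  have h1 : lf = le := by simpa using key 1
  have hle0 : le ≠ 0 := by
    rintro rfl
    have := semi_herm g σ e f
    rw [hle, zero_smul, hermForm_zero_left, hef, map_one] at this
    exact zero_ne_one this
  have hσ : σ = 1 := by
    ext t
    have := key t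
    rw [h1, mul_comm] at this
    exact mul_left_cancel₀ hle0 this
  subst hσ
  refine ⟨rfl, le, ?_⟩
  have hsemi : ∀ x : V, semi g 1 x = g.1.1 *ᵥ x := fun x => rfl
  -- all eigenvalues agree
  have hall : ∀ v : V, H v v = 0 → g.1.1 *ᵥ v = le • v := by
    intro v hv
    by_cases hv0 : v = 0
    · rw [hv0, mulVec_zero, smul_zero]
    obtain ⟨lv, hlv⟩ := semi_eigen hF hn h hv0 hv
    obtain ⟨y, hy, hvy, hey⟩ := exists_isotropic_not_perp hF hv0 he0 hv he
    have hy0 : y ≠ 0 := by
      rintro rfl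
      exact hvy (hermForm_zero_right hF _)
    obtain ⟨ly, hly⟩ := semi_eigen hF hn h hy0 hy
    have aux : ∀ (u : V) (lu : F), H u u = 0 → H u y ≠ 0 → semi g 1 u = lu • u → ly = lu := by
      intro u lu hu huy hlu
      have hs : H u (((H u y)⁻¹) ^ q • y) = 1 := by
        rw [hermForm_smul_right, pow_q_pow_q hF, inv_mul_cancel₀ huy]
      have := semi_pair hF hn h hu
        (by rw [hermForm_smul_left, hermForm_smul_right, hy]; simp) hs
        (by rw [← hermForm_swap hF, hs, one_pow]) hlu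
        (lf := ly) (by rw [semi_smul, hly, smul_comm]; rfl) 1
      simpa using this
    rw [← hsemi, hlv, ← aux v lv hv hvy hlv, aux e le he hey hle]
  have hN : le * le ^ q = 1 := by
    have := gu_preserves' g e f
    rw [hall e he, hall f hf, hermForm_smul_left, hermForm_smul_right, hef] at this
    linear_combination this
  intro x
  rw [← sub_eq_zero]
  apply eq_zero_of_perp_isotropic hF hn
  intro v hv
  have := gu_preserves' g x v
  rw [hall v hv, hermForm_smul_right] at this
  rw [hermForm_sub_left, hermForm_smul_left]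
  linear_combination le * this - (H (g.1.1 *ᵥ x) v) * hN

end Cfsg.Agent.Lib.Helper43.PU
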