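import Cfsg.Agent.Lib.Helper43.PU.Q

set_option autoImplicit false
set_option linter.unusedSectionVars false

/-!
The transvection groups of `PSU_n(q)` are the centres of the Sylow `p`-subgroups; hence every
automorphism permutes them.
-/

namespace Cfsg.Agent.Lib.Helper43.PU

open Matrix Module Pointwise Cfsg.Agent.Lib.Helper43.PA Cfsg.Agent.Lib.Helper5
  Cfsg.Agent.Lib.Helper13 Cfsg.Agent.Lib.Helper94 Cfsg.Agent.Lib.Helper94.U
  Cfsg.Agent.Lib.Helper45.SUGen

variable {F : Type*} [Field F] [Fintype F] {q n : ℕ}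

local notation "H" => Cfsg.hermForm n F q
local notation "V" => (Fin n → F)
local notation "G" => Cfsg.SU n F q

/-- the action of `SU_n` on vectors. -/
@[instance_reducible] noncomputable def suAct : MulAction G V where
  smul g x := g.1.1 *ᵥ x
  one_smul := SU_one_mulVec
  mul_smul := SU_mul_mulVec

lemma finite_SU : Finite G := by
  have : Finite (SpecialLinearGroup (Fin n) F) := Subtype.finite
  exact Subtype.finite

/-- a `p`-subgroup fixes a non-zero vector. -/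
lemma exists_fixed_vector {p : ℕ} [hp : Fact p.Prime] [CharP F p] (hn : 1 ≤ n) (P : Subgroup G)
    (hP : IsPGroup p P) : ∃ x : V, x ≠ 0 ∧ ∀ g ∈ P, g.1.1 *ᵥ x = x := by
  let _ := suAct (F := F) (q := q) (n := n)
  have hcard : p ∣ Nat.card V := by
    rw [Nat.card_eq_fintype_card, Fintype.card_fun, Fintype.card_fin]
    obtain ⟨k, -, hk⟩ := FiniteField.card F p
    rw [hk]
    exact dvd_pow (dvd_pow_self p k.ne_zero) (by omega)
  have h0 : (0 : V) ∈ MulAction.fixedPoints P V := by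
    intro g
    exact mulVec_zero _
  obtain ⟨x, hx, hne⟩ := hP.exists_fixed_point_of_prime_dvd_card_of_fixed_point V hcard h0
  exact ⟨x, hne.symm, fun g hg => hx ⟨g, hg⟩⟩

lemma exists_sylow (hF : Fintype.card F = q ^ 2) {p : ℕ} [hp : Fact p.Prime] [CharP F p]
    (hn : 1 ≤ n) {u : V} (hu0 : u ≠ 0) (hu : H u u = 0) :
    ∃ P : Sylow p G, qGroup hF u hu ≤ P ∧ ∀ g ∈ P, g.1.1 *ᵥ u = u := by
  obtain ⟨P, hP⟩ := (isPGroup_qGroup (p := p) hF u hu).exists_le_sylow
  refine ⟨P, hP, ?_⟩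
  obtain ⟨x, hx0, hx⟩ := exists_fixed_vector hn (P : Subgroup G) P.2
  obtain ⟨c, rfl⟩ := fixed_qGroup hF hu0 hu (fun g hg => hx g (hP hg))
  have hc : c ≠ 0 := by
    rintro rfl
    exact hx0 (zero_smul _ _)
  intro g hg
  have := hx g hg
  rw [mulVec_smul] at this
  exact smul_right_injective V hc this

theorem exists_conj_sylow {p : ℕ} [hp : Fact p.Prime] (P : Sylow p G)
    (β : MulAut (Cfsg.PSU n F q)) :
    ∃ g : G,
      (∀ s ∈ P, ∃ s' ∈ P, β (QuotientGroup.mk s) = QuotientGroup.mk (g * s' * g⁻¹)) ∧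
      (∀ s' ∈ P, ∃ s ∈ P, β (QuotientGroup.mk s) = QuotientGroup.mk (g * s' * g⁻¹)) := by
  have := finite_SU (F := F) (q := q) (n := n)
  let Pb : Sylow p (Cfsg.PSU n F q) := P.mapSurjective (QuotientGroup.mk'_surjective _)
  have hPb : (Pb : Subgroup (Cfsg.PSU n F q)) = (P : Subgroup G).map (QuotientGroup.mk' _) := rfl
  obtain ⟨gb, hgb⟩ := MulAction.exists_smul_eq (Cfsg.PSU n F q) Pb (β • Pb)
  obtain ⟨g, rfl⟩ := QuotientGroup.mk_surjective gb
  have hsub : (MulAut.conj (QuotientGroup.mk g : Cfsg.PSU n F q)) • (Pb : Subgroup (Cfsg.PSU n F q))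
      = β • (Pb : Subgroup (Cfsg.PSU n F q)) := by
    have := congrArg Sylow.toSubgroup hgb
    exact this
  refine ⟨g, fun s hs => ?_, fun s' hs' => ?_⟩
  · have h1 : β (QuotientGroup.mk s) ∈ β • (Pb : Subgroup (Cfsg.PSU n F q)) :=
      Subgroup.smul_mem_pointwise_smul _ β _ (Subgroup.mem_map_of_mem _ hs)
    rw [← hsub] at h1
    obtain ⟨y, hy, hy2⟩ := Subgroup.mem_smul_pointwise_iff_exists _ _ _ |>.mp h1
    obtain ⟨s', hs', rfl⟩ := Subgroup.mem_map.mp hy
    exact ⟨s', hs', hy2.symm⟩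
  · have h1 : (QuotientGroup.mk (g * s' * g⁻¹) : Cfsg.PSU n F q) ∈
        (MulAut.conj (QuotientGroup.mk g : Cfsg.PSU n F q)) • (Pb : Subgroup (Cfsg.PSU n F q)) :=
      Subgroup.smul_mem_pointwise_smul _ _ _ (Subgroup.mem_map_of_mem _ hs')
    rw [hsub] at h1
    obtain ⟨y, hy, hy2⟩ := Subgroup.mem_smul_pointwise_iff_exists _ _ _ |>.mp h1
    obtain ⟨s, hs, rfl⟩ := Subgroup.mem_map.mp hy
    exact ⟨s, hs, hy2⟩

/-- **P2.** Every automorphism of `PSU_n(q)` permutes the transvection groups. -/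
theorem aut_utGroup (hF : Fintype.card F = q ^ 2) {p : ℕ} [hp : Fact p.Prime] [CharP F p]
    (hn : 1 ≤ n) (β : MulAut (Cfsg.PSU n F q)) (u : V) (hu0 : u ≠ 0) (hu : H u u = 0) :
    ∃ (u' : V) (_ : u' ≠ 0) (hu' : H u' u' = 0),
      ((utGroup hF u hu).map (QuotientGroup.mk' (Subgroup.center G))).map β.toMonoidHom =
        (utGroup hF u' hu').map (QuotientGroup.mk' (Subgroup.center G)) := by
  obtain ⟨P, hQP, hPu⟩ := exists_sylow (p := p) hF hn hu0 hu
  obtain ⟨g, h1, h2⟩ := exists_conj_sylow P β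
  have hcomm : ∀ a ∈ P, ∀ b ∈ P,
      (QuotientGroup.mk a : Cfsg.PSU n F q) * QuotientGroup.mk b =
        QuotientGroup.mk b * QuotientGroup.mk a → a * b = b * a := by
    intro a ha b hb h
    refine eq_of_mk_eq_of_fix hF h hu0 ?_ ?_
    · rw [SU_mul_mulVec, hPu b hb, hPu a ha]
    · rw [SU_mul_mulVec, hPu a ha, hPu b hb]
  have hcent : ∀ t ∈ utGroup hF u hu, ∀ b ∈ P, t * b = b * t := by
    rintro _ ⟨c, hc, rfl⟩ b hb
    have := tSU_conj hF b u c hu hc
    rw [tSU_congr hF (hPu b hb) rfl] at this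
    calc tSU hF u c hu hc * b = (b * tSU hF u c hu hc * b⁻¹) * b := by rw [this]
      _ = b * tSU hF u c hu hc := by group
  have hXP : utGroup hF u hu ≤ P := (utGroup_le_qGroup hF u hu).trans hQP
  have hZ : ∀ z ∈ P, (∀ b ∈ P, z * b = b * z) → z ∈ utGroup hF u hu := fun z hz hzb =>
    mem_utGroup_of_commute hF hu0 hu (hPu z hz) (fun b hb => hzb b (hQP hb))
  have hconj : ∀ a b : G, (QuotientGroup.mk (g * a * g⁻¹) : Cfsg.PSU n F q) *
      QuotientGroup.mk (g * b * g⁻¹) = QuotientGroup.mk (g * b * g⁻¹) * QuotientGroup.mk (g * a * g⁻¹)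
      → (QuotientGroup.mk a : Cfsg.PSU n F q) * QuotientGroup.mk b =
        QuotientGroup.mk b * QuotientGroup.mk a := by
    intro a b h
    simp only [QuotientGroup.mk_mul, QuotientGroup.mk_inv] at h
    have h4 := congrArg (fun x => (QuotientGroup.mk g : Cfsg.PSU n F q)⁻¹ * x * QuotientGroup.mk g) h
    simpa [mul_assoc] using h4
  refine ⟨g.1.1 *ᵥ u, su_mulVec_ne_zero g hu0, by rw [SU_preserves, hu], ?_⟩
  rw [utGroup_conj hF g u hu]
  ext y
  constructor
  · rintro ⟨_, ⟨t, ht, rfl⟩, rfl⟩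
    obtain ⟨s', hs', e⟩ := h1 t (hXP ht)
    have hs'X : s' ∈ utGroup hF u hu := by
      apply hZ s' hs'
      intro b' hb'
      obtain ⟨b, hb, eb⟩ := h2 b' hb'
      apply hcomm s' hs' b' hb'
      apply hconj
      rw [← e, ← eb, ← map_mul, ← map_mul, ← QuotientGroup.mk_mul, ← QuotientGroup.mk_mul,
        hcent t ht b hb]
    refine ⟨g * s' * g⁻¹, ?_, e.symm⟩
    exact Subgroup.smul_mem_pointwise_smul _ (MulAut.conj g) _ hs'X
  · rintro ⟨t', ht', rfl⟩
    obtain ⟨s', hs'X, rfl⟩ := Subgroup.mem_smul_pointwise_iff_exists _ _ _ |>.mp ht'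
    obtain ⟨s, hs, e⟩ := h2 s' (hXP hs'X)
    have hsX : s ∈ utGroup hF u hu := by
      apply hZ s hs
      intro b hb
      obtain ⟨b', hb', eb⟩ := h1 b hb
      apply hcomm s hs b hb
      apply β.injective
      rw [map_mul, map_mul, e, eb, ← QuotientGroup.mk_mul, ← QuotientGroup.mk_mul]
      congr 1
      have := hcent s' hs'X b' hb'
      calc g * s' * g⁻¹ * (g * b' * g⁻¹) = g * (s' * b') * g⁻¹ := by group
        _ = g * (b' * s') * g⁻¹ := by rw [this]
        _ = _ := by group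
    exact ⟨_, ⟨s, hsX, rfl⟩, e⟩

end Cfsg.Agent.Lib.Helper43.PU
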